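import Mathlib

/-! Three arithmetic lemmas for the characterisation of the Suzuki groups by three strongly
self-centralising subgroups. -/

set_option autoImplicit false

namespace Cfsg.Agent.H17.Ito

theorem fs_num {m g N T S D e : ℕ} (he : e = 1 ∨ e = 2) (hg : g ≤ 3 * N ^ 2)
    (hD : D + e * N ^ 2 = g) (hT : g * m ≤ T ^ 2) (hS : T + 1 ≤ S + e * N)
    (hS2 : S ^ 2 ≤ (m + 4) * D) : m ≤ 23 := by
  by_contra hm
  obtain ⟨k, rfl⟩ : ∃ k, m = k + 24 := ⟨m - 24, by omega⟩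
  have hT2 : T ^ 2 < (S + e * N) ^ 2 := Nat.pow_lt_pow_left (by omega) (by norm_num)
  subst hD
  rcases Nat.eq_zero_or_pos N with rfl | hN
  · have hD0 : D = 0 := by simpa using hg
    subst hD0
    have : S = 0 := by simpa using hS2
    omega
  rcases he with rfl | rfl
  · have hD : D ≤ 2 * N ^ 2 := by omega
    have h1 : (k + 15) * N * N < 2 * S * N := by nlinarith
    have h2 : (k + 15) * N < 2 * S := Nat.lt_of_mul_lt_mul_right h1
    have h3 : ((k + 15) * N) ^ 2 < (2 * S) ^ 2 := Nat.pow_lt_pow_left h2 (by norm_num)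
    have h4 : (k + 28) * D ≤ (k + 28) * (2 * N ^ 2) := Nat.mul_le_mul_left _ hD
    have h5 : (k + 15) ^ 2 * N ^ 2 < (8 * (k + 28)) * N ^ 2 := by nlinarith
    have h6 := Nat.lt_of_mul_lt_mul_right h5
    nlinarith
  · have hD : D ≤ N ^ 2 := by omega
    have h1 : (k + 20) * N * N < 2 * S * N := by nlinarith
    have h2 : (k + 20) * N < 2 * S := Nat.lt_of_mul_lt_mul_right h1
    have h3 : ((k + 20) * N) ^ 2 < (2 * S) ^ 2 := Nat.pow_lt_pow_left h2 (by norm_num)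
    have h4 : (k + 28) * D ≤ (k + 28) * (N ^ 2) := Nat.mul_le_mul_left _ hD
    have h5 : (k + 20) ^ 2 * N ^ 2 < (4 * (k + 28)) * N ^ 2 := by nlinarith
    have h6 := Nat.lt_of_mul_lt_mul_right h5
    nlinarith

/-- The three congruences. -/
def cong (n1 n2 n3 G : ℕ) : Bool :=
  (G * n2 * n3) % n1 == 2 % n1 && (G * n1 * n3) % n2 == 4 % n2 && (G * n1 * n2) % n3 == 4 % n3

theorem cong_of {n1 n2 n3 G : ℕ} (g1 : G * n2 * n3 ≡ 2 [MOD n1]) (g2 : G * n1 * n3 ≡ 4 [MOD n2])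
    (g3 : G * n1 * n2 ≡ 4 [MOD n3]) : cong n1 n2 n3 G = true := by
  unfold Nat.ModEq at g1 g2 g3
  simp [cong, g1, g2, g3]

def genIn (n1 n2 n3 x y w : ℕ) : Bool :=
  !(w % n1 == 0) || (List.range (3 * (n1 * n2 * n3) / x + 1)).all fun j =>
    !(cong n1 n2 n3 (x * j)) || !(Nat.blt (n1 * n2 * n3) (x * j)) ||
      !((x * j * (n1 * n2 * n3)) % y == 0)

def genT (n1 n2 n3 : ℕ) : Bool :=
  !(Nat.gcd n1 n2 == 1) || !(Nat.gcd n1 n3 == 1) || !(Nat.gcd n2 n3 == 1) ||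
    (List.range (3 * n1)).all fun k =>
      genIn n1 n2 n3 ((k + 1) * (n2 * n3) - 1) ((k + 1) * (n2 * n3)) ((k + 1) * (n2 * n3) - 2) &&
      genIn n1 n2 n3 ((k + 1) * (n2 * n3) + 1) ((k + 1) * (n2 * n3)) ((k + 1) * (n2 * n3) + 2)

def genAll : Bool :=
  (List.range 18).all fun a => (List.range (18 - a)).all fun b => (List.range (18 - a - b)).all
    fun c => genT (2 * (a + 2) + 1) (4 * (b + 2) + 1) (4 * (c + 2) + 1)

theorem genAll_true : genAll = true := by decide +kernel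

theorem genIn_false {n1 n2 n3 x y w G : ℕ} (h : genIn n1 n2 n3 x y w = true) (hw : n1 ∣ w)
    (hx : 0 < x) (hxG : x ∣ G) (hlo : n1 * n2 * n3 < G) (hhi : G ≤ 3 * (n1 * n2 * n3))
    (hc : cong n1 n2 n3 G = true) (hy : y ∣ G * (n1 * n2 * n3)) : False := by
  obtain ⟨j, rfl⟩ := hxG
  have hj : j ∈ List.range (3 * (n1 * n2 * n3) / x + 1) := by
    rw [List.mem_range, Nat.lt_succ_iff, Nat.le_div_iff_mul_le hx, mul_comm]; exact hhi
  unfold genIn at h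
  rw [Nat.mod_eq_zero_of_dvd hw] at h
  simp only [BEq.rfl, Bool.not_true, Bool.false_or, List.all_eq_true] at h
  have h2 := h j hj
  rw [hc, Nat.mod_eq_zero_of_dvd hy, (Nat.blt_eq ▸ hlo : Nat.blt (n1 * n2 * n3) (x * j) = true)] at h2
  simp at h2

theorem cop_of_dvd {n x : ℕ} {δ : ℤ} (hδ : δ = 1 ∨ δ = -1) (h : (n : ℤ) ∣ x + δ) : x.Coprime n := by
  obtain ⟨c, hc⟩ := h
  rw [← Nat.isCoprime_iff_coprime]
  rcases hδ with rfl | rfl
  · exact ⟨-1, c, by linarith⟩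
  · exact ⟨1, -c, by linarith⟩

theorem gen_num {m1 m2 m3 n1 n2 n3 G0 x : ℕ} {δ : ℤ} (e1 : n1 = 2 * m1 + 1) (e2 : n2 = 4 * m2 + 1)
    (e3 : n3 = 4 * m3 + 1) (h1 : 2 ≤ m1) (h2 : 2 ≤ m2) (h3 : 2 ≤ m3) (hm : m1 + m2 + m3 ≤ 23)
    (c12 : n1.Coprime n2) (c13 : n1.Coprime n3) (c23 : n2.Coprime n3) (hδ : δ = 1 ∨ δ = -1)
    (hx : 2 ≤ x) (x1 : (n1 : ℤ) ∣ x - δ) (x2 : (n2 : ℤ) ∣ x + δ) (x3 : (n3 : ℤ) ∣ x + δ)
    (d1 : x ∣ G0 * (n1 * n2 * n3)) (d2 : (x + δ : ℤ) ∣ G0 * (n1 * n2 * n3))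
    (hlo : n1 * n2 * n3 < G0) (hhi : G0 ≤ 3 * (n1 * n2 * n3)) (g1 : G0 * n2 * n3 ≡ 2 [MOD n1])
    (g2 : G0 * n1 * n3 ≡ 4 [MOD n2]) (g3 : G0 * n1 * n2 ≡ 4 [MOD n3]) : False := by
  have k1 : x.Coprime n1 := cop_of_dvd (δ := -δ) (by omega) (by rwa [← sub_eq_add_neg])
  have k2 : x.Coprime n2 := cop_of_dvd hδ x2
  have k3 : x.Coprime n3 := cop_of_dvd hδ x3
  have hxG : x ∣ G0 := (Nat.Coprime.mul_right (Nat.Coprime.mul_right k1 k2) k3).dvd_of_dvd_mul_right d1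
  have hxle : x ≤ G0 := Nat.le_of_dvd (by omega) hxG
  have hc := cong_of g1 g2 g3
  have hT : genT n1 n2 n3 = true := by
    have h := genAll_true
    simp only [genAll, List.all_eq_true, List.mem_range] at h
    have h' := h (m1 - 2) (by omega) (m2 - 2) (by omega) (m3 - 2) (by omega)
    rwa [show m1 - 2 + 2 = m1 by omega, show m2 - 2 + 2 = m2 by omega,
      show m3 - 2 + 2 = m3 by omega, ← e1, ← e2, ← e3] at h'
  unfold genT at hT
  rw [c12.gcd_eq_one, c13.gcd_eq_one, c23.gcd_eq_one] at hT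
  simp only [BEq.rfl, Bool.not_true, Bool.false_or, List.all_eq_true, List.mem_range,
    Bool.and_eq_true] at hT
  obtain ⟨y, hy⟩ : ∃ y : ℕ, (y : ℤ) = x + δ := ⟨(x + δ : ℤ).toNat, by omega⟩
  rw [← hy] at x2 x3 d2
  have y2 : n2 ∣ y := by exact_mod_cast x2
  have y3 : n3 ∣ y := by exact_mod_cast x3
  have d2' : y ∣ G0 * (n1 * n2 * n3) := by exact_mod_cast d2
  obtain ⟨k, hk⟩ := c23.mul_dvd_of_dvd_of_dvd y2 y3
  have hM : 81 ≤ n2 * n3 := by nlinarith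
  have hk0 : k ≠ 0 := by rintro rfl; omega
  obtain ⟨k, rfl⟩ := Nat.exists_eq_succ_of_ne_zero hk0
  have hk1 : y = (k + 1) * (n2 * n3) := by rw [hk, mul_comm]
  have hk2 : k < 3 * n1 := by
    by_contra hh
    have h5 : (3 * n1 + 1) * (n2 * n3) ≤ (k + 1) * (n2 * n3) := Nat.mul_le_mul_right _ (by omega)
    have h6 : (3 * n1 + 1) * (n2 * n3) = 3 * (n1 * n2 * n3) + n2 * n3 := by ring
    omega
  obtain ⟨hA, hB⟩ := hT k hk2
  rw [← hk1] at hA hB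
  rcases hδ with rfl | rfl
  · have hxy : y - 1 = x := by omega
    rw [hxy] at hA
    refine genIn_false hA ?_ (by omega) hxG hlo hhi hc d2'
    have : ((y - 2 : ℕ) : ℤ) = x - 1 := by omega
    rw [← this] at x1
    exact_mod_cast x1
  · have hxy : y + 1 = x := by omega
    rw [hxy] at hB
    refine genIn_false hB ?_ (by omega) hxG hlo hhi hc d2'
    have : ((y + 2 : ℕ) : ℤ) = x - -1 := by omega
    rw [← this] at x1
    exact_mod_cast x1

def betIn (n1 n3 M x y w : ℕ) : Bool :=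
  !(w % n1 == 0) || !(M % x == 0) || !(M % y == 0) || !(Nat.blt (x ^ 2) M) ||
    !(x % n3 == 0 || y % n3 == 0)

def betT (n1 n2 n3 : ℕ) : Bool :=
  (List.range (3 * (n1 * n2 * n3) + 1)).all fun G => !(cong n1 n2 n3 G) ||
    (List.range (2 * n1 * n3)).all fun i =>
      betIn n1 n3 (G * (n1 * n2 * n3)) (n2 * i) (n2 * i + 1) (n2 * i - 1) &&
      betIn n1 n3 (G * (n1 * n2 * n3)) (n2 * i) (n2 * i - 1) (n2 * i + 1)

def betAll : Bool :=
  (List.range 2).all fun a => (List.range 5).all fun b => (List.range (5 - b)).all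
    fun c => betT (2 * (a + 2) + 1) (4 * (b + 2) + 1) (4 * (c + 2) + 1)

set_option maxRecDepth 100000 in
theorem betAll_true : betAll = true := by decide +kernel

theorem betIn_false {n1 n3 M x y w : ℕ} (h : betIn n1 n3 M x y w = true) (hw : n1 ∣ w)
    (hx : x ∣ M) (hy : y ∣ M) (hlt : x ^ 2 < M) (h3 : n3 ∣ x ∨ n3 ∣ y) : False := by
  unfold betIn at h
  rw [Nat.mod_eq_zero_of_dvd hw, Nat.mod_eq_zero_of_dvd hx, Nat.mod_eq_zero_of_dvd hy,
    (Nat.blt_eq ▸ hlt : Nat.blt (x ^ 2) M = true)] at h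
  rcases h3 with h3 | h3 <;> rw [Nat.mod_eq_zero_of_dvd h3] at h <;> simp at h

theorem beta_num {m1 m2 m3 n1 n2 n3 G0 x : ℕ} {δ y : ℤ} (e1 : n1 = 2 * m1 + 1)
    (e2 : n2 = 4 * m2 + 1) (e3 : n3 = 4 * m3 + 1) (h1 : m1 = 2 ∨ m1 = 3) (h2 : 2 ≤ m2)
    (h3 : 2 ≤ m3) (hδ : δ = 1 ∨ δ = -1) (hx : 2 ≤ x) (x1 : (n1 : ℤ) ∣ x - δ) (x2 : n2 ∣ x)
    (x3 : n3 ∣ x ∨ (n3 : ℤ) ∣ x + δ) (hy : n1 * y ≤ x + (n1 - 1) * δ)
    (hm : ((m1 + m2 + m3 : ℕ) : ℤ) * (x - y) ^ 2 ≤ n1 * x * (x + δ))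
    (hxg : x ^ 2 < G0 * (n1 * n2 * n3)) (d1 : x ∣ G0 * (n1 * n2 * n3))
    (d2 : (x + δ : ℤ) ∣ G0 * (n1 * n2 * n3)) (hhi : G0 ≤ 3 * (n1 * n2 * n3))
    (g1 : G0 * n2 * n3 ≡ 2 [MOD n1]) (g2 : G0 * n1 * n3 ≡ 4 [MOD n2])
    (g3 : G0 * n1 * n2 ≡ 4 [MOD n3]) : False := by
  have hx9 : 9 ≤ x := by have := Nat.le_of_dvd (by omega) x2; omega
  have hx9' : (9 : ℤ) ≤ x := by exact_mod_cast hx9
  have hsum : m2 + m3 ≤ 8 := by
    by_contra hh
    rcases h1 with rfl | rfl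
    · obtain rfl : n1 = 5 := by omega
      have hm11 : (11 : ℤ) ≤ ((2 + m2 + m3 : ℕ) : ℤ) := by exact_mod_cast (by omega)
      have ha : 11 * ((x : ℤ) - y) ^ 2 ≤ 5 * x * (x + δ) :=
        le_trans (mul_le_mul_of_nonneg_right hm11 (sq_nonneg _)) (by exact_mod_cast hm)
      push_cast at hy
      have hb : 4 * ((x : ℤ) - δ) ≤ 5 * (x - y) := by linarith
      have hc : (4 * ((x : ℤ) - δ)) ^ 2 ≤ (5 * (x - y)) ^ 2 :=
        pow_le_pow_left₀ (by rcases hδ with rfl | rfl <;> linarith) hb 2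
      rcases hδ with rfl | rfl <;> nlinarith
    · obtain rfl : n1 = 7 := by omega
      have hm11 : (12 : ℤ) ≤ ((3 + m2 + m3 : ℕ) : ℤ) := by exact_mod_cast (by omega)
      have ha : 12 * ((x : ℤ) - y) ^ 2 ≤ 7 * x * (x + δ) :=
        le_trans (mul_le_mul_of_nonneg_right hm11 (sq_nonneg _)) (by exact_mod_cast hm)
      push_cast at hy x1
      have hb : 6 * ((x : ℤ) - δ) ≤ 7 * (x - y) := by linarith
      have hc : (6 * ((x : ℤ) - δ)) ^ 2 ≤ (7 * (x - y)) ^ 2 :=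
        pow_le_pow_left₀ (by rcases hδ with rfl | rfl <;> linarith) hb 2
      rcases hδ with rfl | rfl
      · have h15 : (15 : ℤ) ≤ x := by omega
        nlinarith
      · nlinarith
  have hc := cong_of g1 g2 g3
  have hT : betT n1 n2 n3 = true := by
    have h := betAll_true
    simp only [betAll, List.all_eq_true, List.mem_range] at h
    have h' := h (m1 - 2) (by omega) (m2 - 2) (by omega) (m3 - 2) (by omega)
    rwa [show m1 - 2 + 2 = m1 by omega, show m2 - 2 + 2 = m2 by omega,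
      show m3 - 2 + 2 = m3 by omega, ← e1, ← e2, ← e3] at h'
  simp only [betT, List.all_eq_true, List.mem_range] at hT
  have hG := hT G0 (by omega)
  rw [hc] at hG
  simp only [Bool.not_true, Bool.false_or, List.all_eq_true, List.mem_range,
    Bool.and_eq_true] at hG
  obtain ⟨i, hi⟩ := x2
  have hi2 : i < 2 * n1 * n3 := by
    by_contra hh
    have h5 : n2 * (2 * n1 * n3) ≤ x := hi ▸ Nat.mul_le_mul_left _ (by omega)
    have h6 : (n2 * (2 * n1 * n3)) ^ 2 ≤ x ^ 2 := Nat.pow_le_pow_left h5 2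
    have h7 : G0 * (n1 * n2 * n3) ≤ 3 * (n1 * n2 * n3) * (n1 * n2 * n3) :=
      Nat.mul_le_mul_right _ hhi
    have h8 : (n2 * (2 * n1 * n3)) ^ 2 = 4 * ((n1 * n2 * n3) * (n1 * n2 * n3)) := by ring
    have h9 : 3 * (n1 * n2 * n3) * (n1 * n2 * n3) = 3 * ((n1 * n2 * n3) * (n1 * n2 * n3)) := by ring
    omega
  obtain ⟨hA, hB⟩ := hG i hi2
  rw [← hi] at hA hB
  have p1 : ((x + 1 : ℕ) : ℤ) = x + 1 := by omega
  have p2 : ((x - 1 : ℕ) : ℤ) = x - 1 := by omega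
  rcases hδ with rfl | rfl
  · rw [← p2] at x1
    rw [← p1] at d2 x3
    exact betIn_false hA (by exact_mod_cast x1) d1 (by exact_mod_cast d2) hxg
      (x3.imp id fun h => by exact_mod_cast h)
  · rw [sub_neg_eq_add, ← p1] at x1
    rw [← sub_eq_add_neg, ← p2] at d2 x3
    exact betIn_false hB (by exact_mod_cast x1) d1 (by exact_mod_cast d2) hxg
      (x3.imp id fun h => by exact_mod_cast h)

end Cfsg.Agent.H17.Ito
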