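import Mathlib

/-!
# Spaces of singular `3 × 3` matrices and twisted algebras of dimension three
-/

set_option autoImplicit false

namespace Cfsg.Agent.H17

open Matrix Module

section Poly

variable {F V : Type*} [Field F] [Infinite F] [AddCommGroup V] [Module F V]

theorem cubic_coeff {a b c d : F} (h : ∀ t : F, a + b * t + c * t ^ 2 + d * t ^ 3 = 0) :
    a = 0 ∧ b = 0 ∧ c = 0 ∧ d = 0 := by
  have h1 : (Polynomial.C a + Polynomial.C b * Polynomial.X + Polynomial.C c * Polynomial.X ^ 2 +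
      Polynomial.C d * Polynomial.X ^ 3 : Polynomial F) = 0 :=
    Polynomial.funext fun t => by simpa using h t
  have h2 := fun n => congrArg (Polynomial.coeff · n) h1
  refine ⟨?_, ?_, ?_, ?_⟩
  · simpa using h2 0
  · simpa [Polynomial.coeff_C, Polynomial.coeff_X, Polynomial.coeff_X_pow] using h2 1
  · simpa [Polynomial.coeff_C, Polynomial.coeff_X, Polynomial.coeff_X_pow] using h2 2
  · simpa [Polynomial.coeff_C, Polynomial.coeff_X, Polynomial.coeff_X_pow] using h2 3

omit [Infinite F] in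
theorem exists_two_ne_zero {f g : V →ₗ[F] F} (hf : f ≠ 0) (hg : g ≠ 0) :
    ∃ x, f x ≠ 0 ∧ g x ≠ 0 := by
  obtain ⟨u, hu⟩ := DFunLike.ne_iff.1 hf
  obtain ⟨v, hv⟩ := DFunLike.ne_iff.1 hg
  by_cases h1 : g u = 0
  · by_cases h2 : f v = 0
    · exact ⟨u + v, by simpa [h2] using hu, by simpa [h1] using hv⟩
    · exact ⟨v, h2, hv⟩
  · exact ⟨u, hu, h1⟩

theorem eq_zero_of_mul_three {f g h : V →ₗ[F] F} (hf : f ≠ 0) (hg : g ≠ 0)
    (H : ∀ v, f v * g v * h v = 0) (w : V) : h w = 0 := by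
  obtain ⟨x, h1, h2⟩ := exists_two_ne_zero hf hg
  obtain ⟨h3, h4, -, -⟩ := cubic_coeff (a := f x * g x * h x)
    (b := f x * g x * h w + (f w * g x + f x * g w) * h x)
    (c := f w * g w * h x + (f w * g x + f x * g w) * h w) (d := f w * g w * h w) fun t => by
      have := H (x + t • w)
      simp only [map_add, map_smul, smul_eq_mul] at this
      linear_combination this
  have h5 : h x = 0 := (mul_eq_zero.1 h3).resolve_left (mul_ne_zero h1 h2)
  rw [h5, mul_zero, add_zero] at h4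
  exact (mul_eq_zero.1 h4).resolve_left (mul_ne_zero h1 h2)

/-- The bordered matrices `[[T, b], [c, 0]]` with `c b = c T b = 0`. -/
theorem pencil_aux (t00 t01 t10 t11 b0 b1 c0 c1 : V →ₗ[F] F) (hc : c0 ≠ 0 ∨ c1 ≠ 0)
    (E2 : ∀ v, c0 v * b0 v + c1 v * b1 v = 0)
    (E3 : ∀ v, c0 v * (t00 v * b0 v + t01 v * b1 v) + c1 v * (t10 v * b0 v + t11 v * b1 v) = 0) :
    ∃ μ : V →ₗ[F] F, (b0 ≠ 0 ∨ b1 ≠ 0 ∨ μ ≠ 0) ∧ ∀ v,
      t00 v * b0 v + t01 v * b1 v = μ v * b0 v ∧ t10 v * b0 v + t11 v * b1 v = μ v * b1 v := by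
  by_cases hs : ∃ u w, b0 u * b1 w - b1 u * b0 w ≠ 0
  · obtain ⟨u, w, hd⟩ := hs
    obtain ⟨v1, h10, h11⟩ : ∃ v, b0 v = 1 ∧ b1 v = 0 :=
      ⟨(b0 u * b1 w - b1 u * b0 w)⁻¹ • (b1 w • u - b1 u • w), by
        simp only [map_smul, map_sub, smul_eq_mul]; field_simp, by
        simp only [map_smul, map_sub, smul_eq_mul]; ring⟩
    obtain ⟨v2, h20, h21⟩ : ∃ v, b0 v = 0 ∧ b1 v = 1 :=
      ⟨(b0 u * b1 w - b1 u * b0 w)⁻¹ • (b0 u • w - b0 w • u), by
        simp only [map_smul, map_sub, smul_eq_mul]; ring, by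
        simp only [map_smul, map_sub, smul_eq_mul]; field_simp⟩
    have a1 : c0 v1 = 0 := by simpa [h10, h11] using E2 v1
    have a2 : c1 v2 = 0 := by simpa [h20, h21] using E2 v2
    have a3 : c1 v1 = -c0 v2 := by
      have := E2 (v1 + v2)
      simp only [map_add, h10, h11, h20, h21, a1, a2] at this
      linear_combination this
    have dec : ∀ v, ∃ r, b0 r = 0 ∧ b1 r = 0 ∧ v = b0 v • v1 + b1 v • v2 + r := fun v =>
      ⟨v - b0 v • v1 - b1 v • v2, by simp [h10, h20], by simp [h11, h21], by abel⟩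
    have a4 : ∀ r, b0 r = 0 → b1 r = 0 → c0 r = 0 ∧ c1 r = 0 := fun r h0 h1 => by
      have e1 := E2 (v1 + r)
      have e2 := E2 (v2 + r)
      simp only [map_add, h10, h11, h20, h21, a1, a2, h0, h1] at e1 e2
      exact ⟨by linear_combination e1, by linear_combination e2⟩
    have hκ : c0 v2 ≠ 0 := fun h0 => by
      have : ∀ v, c0 v = 0 ∧ c1 v = 0 := fun v => by
        obtain ⟨r, h1, h2, h3⟩ := dec v
        rw [h3]
        simp [a1, a2, a3, h0, a4 r h1 h2]
      rcases hc with h | h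
      · exact h (LinearMap.ext fun v => (this v).1)
      · exact h (LinearMap.ext fun v => (this v).2)
    have D : ∀ (x y : F) r, b0 r = 0 → b1 r = 0 →
        y * ((x * t00 v1 + y * t00 v2 + t00 r) * x + (x * t01 v1 + y * t01 v2 + t01 r) * y) -
        x * ((x * t10 v1 + y * t10 v2 + t10 r) * x + (x * t11 v1 + y * t11 v2 + t11 r) * y) = 0 :=
      fun x y r h0 h1 => by
        have := E3 (x • v1 + y • v2 + r)
        simp only [map_add, map_smul, smul_eq_mul, h10, h11, h20, h21, a1, a2, a3, h0, h1,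
          a4 r h0 h1] at this
        exact mul_left_cancel₀ hκ (by linear_combination this)
    obtain ⟨d0, d1, d2, d3⟩ := cubic_coeff (a := -t10 v1) (b := t00 v1 - t10 v2 - t11 v1)
      (c := t00 v2 + t01 v1 - t11 v2) (d := t01 v2) fun t => by
        have := D 1 t 0 (map_zero _) (map_zero _)
        simp only [map_zero] at this
        linear_combination this
    refine ⟨t00 + t01 v1 • b1, Or.inl fun h => by simp [h] at h10, fun v => ?_⟩
    obtain ⟨r, h0, h1, h3⟩ := dec v
    have r1 : t10 r = 0 := by linear_combination -D 1 0 r h0 h1 + d0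
    have r2 : t01 r = 0 := by linear_combination D 0 1 r h0 h1 - d3
    have r3 : t11 r = t00 r := by
      linear_combination -D 1 1 r h0 h1 + d0 + d1 + d2 + d3 + r2 - r1
    have key : ∀ f : V →ₗ[F] F, f v = b0 v * f v1 + b1 v * f v2 + f r := fun f => by
      conv_lhs => rw [h3]
      simp only [map_add, map_smul, smul_eq_mul]
    simp only [LinearMap.add_apply, LinearMap.smul_apply, smul_eq_mul]
    rw [key t00, key t01, key t10, key t11]
    constructor
    · linear_combination b1 v ^ 2 * d3 + b1 v * r2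
    · linear_combination -b0 v ^ 2 * d0 - b0 v * b1 v * d1 - b1 v ^ 2 * d2 + b0 v * r1 + b1 v * r3
  push Not at hs
  by_cases hb : b0 = 0 ∧ b1 = 0
  · obtain ⟨rfl, rfl⟩ := hb
    rcases hc with h | h
    · exact ⟨c0, Or.inr (Or.inr h), fun v => by simp⟩
    · exact ⟨c1, Or.inr (Or.inr h), fun v => by simp⟩
  obtain ⟨v1, γ0, γ1, hγ⟩ : ∃ v γ0 γ1, γ0 * b0 v + γ1 * b1 v = 1 := by
    rcases not_and_or.1 hb with h | h
    · obtain ⟨v, hv⟩ := DFunLike.ne_iff.1 h
      exact ⟨v, (b0 v)⁻¹, 0, by rw [inv_mul_cancel₀ hv]; ring⟩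
    · obtain ⟨v, hv⟩ := DFunLike.ne_iff.1 h
      exact ⟨v, 0, (b1 v)⁻¹, by rw [inv_mul_cancel₀ hv]; ring⟩
  have l0 : ∀ v, b0 v = (γ0 * b0 v + γ1 * b1 v) * b0 v1 := fun v => by
    linear_combination -b0 v * hγ - γ1 * hs v1 v
  have l1 : ∀ v, b1 v = (γ0 * b0 v + γ1 * b1 v) * b1 v1 := fun v => by
    linear_combination -b1 v * hγ + γ0 * hs v1 v
  have hl : γ0 • b0 + γ1 • b1 ≠ 0 := fun h => by
    have := LinearMap.congr_fun h v1
    simp [hγ] at this
  have hcb : ∀ v, b0 v1 * c0 v + b1 v1 * c1 v = 0 :=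
    eq_zero_of_mul_three (h := b0 v1 • c0 + b1 v1 • c1) hl hl fun v => by
      simp only [LinearMap.add_apply, LinearMap.smul_apply, smul_eq_mul]
      linear_combination (γ0 * b0 v + γ1 * b1 v) * (E2 v - c0 v * l0 v - c1 v * l1 v)
  have hz : ∀ v, b0 v1 * (b0 v1 * t10 v + b1 v1 * t11 v) -
      b1 v1 * (b0 v1 * t00 v + b1 v1 * t01 v) = 0 := by
    have e : ∀ v, (γ0 * b0 v + γ1 * b1 v) * (c0 v * (b0 v1 * t00 v + b1 v1 * t01 v) +
        c1 v * (b0 v1 * t10 v + b1 v1 * t11 v)) = 0 := fun v => by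
      linear_combination E3 v - (c0 v * t00 v + c1 v * t10 v) * l0 v -
        (c0 v * t01 v + c1 v * t11 v) * l1 v
    rcases hc with h | h
    · refine eq_zero_of_mul_three (h := b0 v1 • (b0 v1 • t10 + b1 v1 • t11) -
        b1 v1 • (b0 v1 • t00 + b1 v1 • t01)) hl h fun v => ?_
      simp only [LinearMap.add_apply, LinearMap.sub_apply, LinearMap.smul_apply, smul_eq_mul]
      linear_combination -b1 v1 * e v +
        (γ0 * b0 v + γ1 * b1 v) * (b0 v1 * t10 v + b1 v1 * t11 v) * hcb v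
    · refine eq_zero_of_mul_three (h := b0 v1 • (b0 v1 • t10 + b1 v1 • t11) -
        b1 v1 • (b0 v1 • t00 + b1 v1 • t01)) hl h fun v => ?_
      simp only [LinearMap.add_apply, LinearMap.sub_apply, LinearMap.smul_apply, smul_eq_mul]
      linear_combination b0 v1 * e v -
        (γ0 * b0 v + γ1 * b1 v) * (b0 v1 * t00 v + b1 v1 * t01 v) * hcb v
  refine ⟨γ0 • (b0 v1 • t00 + b1 v1 • t01) + γ1 • (b0 v1 • t10 + b1 v1 • t11),
    (not_and_or.1 hb).imp_right Or.inl, fun v => ?_⟩
  simp only [LinearMap.add_apply, LinearMap.smul_apply, smul_eq_mul]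
  constructor
  · linear_combination (t00 v - (γ0 * (b0 v1 * t00 v + b1 v1 * t01 v) +
      γ1 * (b0 v1 * t10 v + b1 v1 * t11 v))) * l0 v + t01 v * l1 v + (γ0 * b0 v + γ1 * b1 v) *
      (-(b0 v1 * t00 v + b1 v1 * t01 v) * hγ - γ1 * hz v)
  · linear_combination (t11 v - (γ0 * (b0 v1 * t00 v + b1 v1 * t01 v) +
      γ1 * (b0 v1 * t10 v + b1 v1 * t11 v))) * l1 v + t10 v * l0 v + (γ0 * b0 v + γ1 * b1 v) *
      (-(b0 v1 * t10 v + b1 v1 * t11 v) * hγ + γ0 * hz v)

/-- A space of singular `3 × 3` matrices containing `diag(0, 1, 1)`. -/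
theorem pencil_core (N : V →ₗ[F] Matrix (Fin 3) (Fin 3) F) (a : V)
    (ha : N a = !![0, 0, 0; 0, 1, 0; 0, 0, 1]) (h : ∀ v, (N v).det = 0) :
    (∀ v j, N v 0 j = 0) ∨ ∃ φ : V →ₗ[F] (Fin 3 → F), φ ≠ 0 ∧ ∀ v, N v *ᵥ φ v = 0 := by
  let n : Fin 3 → Fin 3 → V →ₗ[F] F := fun i j => (Matrix.entryLinearMap F F i j).comp N
  have hn : ∀ i j v, n i j v = N v i j := fun _ _ _ => rfl
  have key : ∀ v, N v 0 0 = 0 ∧ N v 0 1 * N v 1 0 + N v 0 2 * N v 2 0 = 0 := fun v => by
    obtain ⟨-, h1, h2, -⟩ := cubic_coeff (a := 0) (b := N v 0 0)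
      (c := N v 0 0 * N v 1 1 + N v 0 0 * N v 2 2 - N v 0 1 * N v 1 0 - N v 0 2 * N v 2 0)
      (d := (N v).det) fun t => by
        have := h (a + t • v)
        rw [map_add, map_smul, ha] at this
        simp only [det_fin_three, Matrix.add_apply, Matrix.smul_apply, smul_eq_mul, of_apply,
          cons_val', cons_val_zero, cons_val_one, cons_val_two, cons_val_fin_one, empty_val',
          head_cons, tail_cons, head_fin_const] at this ⊢
        linear_combination this
    exact ⟨h1, by linear_combination -h2 + (N v 1 1 + N v 2 2) * h1⟩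
  by_cases hc : n 0 1 = 0 ∧ n 0 2 = 0
  · refine Or.inl fun v j => ?_
    fin_cases j
    · exact (key v).1
    · exact LinearMap.congr_fun hc.1 v
    · exact LinearMap.congr_fun hc.2 v
  obtain ⟨μ, h1, h2⟩ := pencil_aux (n 1 1) (n 1 2) (n 2 1) (n 2 2) (n 1 0) (n 2 0) (n 0 1) (n 0 2)
    (not_and_or.1 hc) (fun v => (key v).2) fun v => by
      have := h v
      rw [det_fin_three] at this
      simp only [hn]
      linear_combination this + (N v 1 1 + N v 2 2) * (key v).2 -
        (N v 1 1 * N v 2 2 - N v 1 2 * N v 2 1) * (key v).1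
  refine Or.inr ⟨LinearMap.pi ![-μ, n 1 0, n 2 0], fun h0 => ?_, fun v => ?_⟩
  · have h3 : ∀ i v, (![-μ, n 1 0, n 2 0] : Fin 3 → V →ₗ[F] F) i v = 0 := fun i v =>
      congrFun (LinearMap.congr_fun h0 v) i
    rcases h1 with h | h | h
    · exact h (LinearMap.ext (h3 1))
    · exact h (LinearMap.ext (h3 2))
    · exact h (LinearMap.ext fun v => neg_eq_zero.1 (h3 0 v))
  · obtain ⟨h3, h4⟩ := h2 v
    simp only [hn] at h3 h4
    ext i
    fin_cases i <;>
      simp only [mulVec, dotProduct, Fin.sum_univ_three, LinearMap.pi_apply, cons_val_zero,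
        cons_val_one, cons_val_two, head_cons, tail_cons, LinearMap.neg_apply, hn,
        Pi.zero_apply, Fin.zero_eta, Fin.mk_one, Fin.reduceFinMk]
    · linear_combination (key v).2 - μ v * (key v).1
    · linear_combination h3
    · linear_combination h4

/-- A space of singular endomorphisms of a three-dimensional space, one of them of rank two. -/
theorem pencil_three {U : Type*} [AddCommGroup U] [Module F U] (hU : finrank F U = 3)
    (L : V →ₗ[F] U →ₗ[F] U) (h : ∀ v, ∃ x ≠ 0, L v x = 0) {a : V} {u0 u1 : U}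
    (ha : LinearIndependent F ![L a u0, L a u1]) :
    (∃ p : U →ₗ[F] F, p ≠ 0 ∧ ∀ v x, p (L v x) = 0) ∨
      ∃ φ : V →ₗ[F] U, φ ≠ 0 ∧ ∀ v, L v (φ v) = 0 := by
  obtain ⟨x, hx, hx0⟩ := h a
  have h1 : LinearIndependent F ![x, u0, u1] := by
    rw [Fintype.linearIndependent_iff]
    intro g hg
    simp only [Fin.sum_univ_three, cons_val_zero, cons_val_one, cons_val_two, head_cons,
      tail_cons] at hg
    have h2 := congrArg (L a) hg
    simp only [map_add, map_smul, hx0, smul_zero, zero_add, map_zero] at h2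
    obtain ⟨h3, h4⟩ := LinearIndependent.pair_iff.1 ha _ _ h2
    simp only [h3, h4, zero_smul, add_zero, smul_eq_zero, hx, or_false] at hg
    intro i
    fin_cases i <;> assumption
  obtain ⟨y, h2⟩ := exists_linearIndependent_cons_of_lt_finrank ha (by omega)
  let b1 := basisOfLinearIndependentOfCardEqFinrank h1 (by simp [hU])
  let b2 := basisOfLinearIndependentOfCardEqFinrank h2 (by simp [hU])
  have e1 : ∀ i, b1 i = ![x, u0, u1] i := fun i =>
    congrFun (coe_basisOfLinearIndependentOfCardEqFinrank h1 _) i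
  have e2 : ∀ i, b2 i = ![y, L a u0, L a u1] i := fun i =>
    congrFun (coe_basisOfLinearIndependentOfCardEqFinrank h2 _) i
  let N : V →ₗ[F] Matrix (Fin 3) (Fin 3) F := (LinearMap.toMatrix b1 b2).toLinearMap.comp L
  have hN : ∀ v x, N v *ᵥ b1.repr x = b2.repr (L v x) := fun v x =>
    LinearMap.toMatrix_mulVec_repr b1 b2 (L v) x
  have hN' : ∀ v i j, N v i j = b2.repr (L v (b1 j)) i := fun v i j =>
    LinearMap.toMatrix_apply b1 b2 (L v) i j
  rcases pencil_core N a (by
      have f0 : L a (b1 0) = 0 := by rw [e1]; exact hx0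
      have f1 : L a (b1 1) = b2 1 := by rw [e1, e2]; rfl
      have f2 : L a (b1 2) = b2 2 := by rw [e1, e2]; rfl
      ext i j
      rw [hN']
      fin_cases j <;> fin_cases i <;> simp [f0, f1, f2])
    (fun v => by
      obtain ⟨x, hx, hx0⟩ := h v
      refine Matrix.exists_mulVec_eq_zero_iff.1 ⟨b1.repr x, fun h0 => hx ?_, ?_⟩
      · exact b1.repr.map_eq_zero_iff.1 (DFunLike.coe_injective h0)
      · rw [hN, hx0, map_zero]; rfl) with h3 | ⟨φ, h3, h4⟩
  · refine Or.inl ⟨b2.coord 0, fun h0 => ?_, fun v x => ?_⟩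
    · simpa using LinearMap.congr_fun h0 (b2 0)
    · have := congrFun (hN v x) 0
      simp only [mulVec, dotProduct, h3, zero_mul, Finset.sum_const_zero] at this
      exact this.symm
  · refine Or.inr ⟨b1.equivFun.symm.toLinearMap.comp φ, fun h0 => h3 (LinearMap.ext fun v => ?_),
      fun v => ?_⟩
    · exact b1.equivFun.symm.map_eq_zero_iff.1 (LinearMap.congr_fun h0 v)
    · refine b2.repr.map_eq_zero_iff.1 (DFunLike.coe_injective ?_)
      rw [← hN]
      have : ⇑(b1.repr (b1.equivFun.symm (φ v))) = φ v := b1.equivFun.apply_symm_apply (φ v)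
      change N v *ᵥ ⇑(b1.repr (b1.equivFun.symm (φ v))) = _
      rw [this, h4]; rfl

omit [Infinite F] in
/-- A space of linear maps of rank at most one. -/
theorem pencil_one {U W : Type*} [AddCommGroup U] [Module F U] [AddCommGroup W] [Module F W]
    (L : V →ₗ[F] U →ₗ[F] W) (H : ∀ a u v, L a u ≠ 0 → ∃ t : F, L a v = t • L a u) :
    (∃ e, ∀ a x, ∃ t : F, L a x = t • e) ∨ ∃ v0, ∀ x, ∃ t : F, ∀ a, L a x = t • L a v0 := by
  by_cases h0 : ∀ a x, L a x = 0
  · exact Or.inl ⟨0, fun a x => ⟨0, by simp [h0]⟩⟩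
  push Not at h0
  obtain ⟨a0, v0, he⟩ := h0
  by_cases h1 : ∀ a x, ∃ t : F, L a x = t • L a0 v0
  · exact Or.inl ⟨_, h1⟩
  push Not at h1
  obtain ⟨a1, v1, h1⟩ := h1
  have key : ∀ a v, L a0 v = 0 → L a v ≠ 0 → ∀ x, ∃ t : F, L a x = t • L a0 v0 := by
    intro a v hv hq x
    obtain ⟨t, ht⟩ := H a v v0 hq
    obtain ⟨t', ht'⟩ := H (a0 + a) v v0 (by simpa [hv] using hq)
    obtain ⟨r, hr⟩ := H a v x hq
    simp only [map_add, LinearMap.add_apply, hv, zero_add, ht] at ht'
    have h2 : L a0 v0 = (t' - t) • L a v := by rw [sub_smul, ← ht']; abel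
    have h3 : t' - t ≠ 0 := fun h => he (by rw [h2, h, zero_smul])
    exact ⟨r * (t' - t)⁻¹, by rw [h2, hr, smul_smul, mul_assoc, inv_mul_cancel₀ h3, mul_one]⟩
  refine Or.inr ⟨v0, fun x => ?_⟩
  obtain ⟨t, ht⟩ := H a0 v0 x he
  refine ⟨t, fun a => ?_⟩
  have hv : L a0 (x - t • v0) = 0 := by simp [ht]
  have h2 : L a1 (x - t • v0) = 0 := by
    by_contra h
    obtain ⟨r, hr⟩ := key a1 _ hv h v1
    exact h1 r hr
  have h3 : L a (x - t • v0) = 0 := by
    by_contra h
    obtain ⟨r, hr⟩ := key a _ hv h v1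
    obtain ⟨r', hr'⟩ := key (a + a1) _ hv (by simpa [h2] using h) v1
    refine h1 (r' - r) ?_
    rw [sub_smul, ← hr, ← hr']; simp
  simpa [sub_eq_zero] using h3

end Poly

section Tri

variable {F W : Type*} [Field F] [AddCommGroup W] [Module F W]

theorem cube_scalar {ι : Type*} {b : ι → ι → F} {l m : ι → F}
    (h : ∀ u v w, b u v * l w = m u * b v w) {x y : ι} (hxy : b x y ≠ b y x) :
    (∀ w, l w = 0) ∧ ∀ u, m u = 0 := by
  have h0 := sub_ne_zero.2 hxy
  have h1 : ∀ u, m u = 0 := fun u => by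
    have : m u ^ 2 * (b x y - b y x) = 0 := by
      linear_combination -m u * h u x y + m u * h u y x - l y * h u u x + l x * h u u y
    exact pow_eq_zero_iff two_ne_zero |>.1 ((mul_eq_zero.1 this).resolve_right h0)
  refine ⟨fun w => (mul_eq_zero.1 ?_).resolve_left h0, h1⟩
  linear_combination h x y w - h y x w + b y w * h1 x - b x w * h1 y

theorem exists_cross (P : (Fin 3 → F) →ₗ[F] (Fin 3 → F) →ₗ[F] W) :
    ∃ c : (Fin 3 → F) →ₗ[F] W, ∀ u v, c (u ⨯₃ v) = P u v - P v u := by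
  let e : Fin 3 → Fin 3 → F := fun i => Pi.single i 1
  have he : ∀ u : Fin 3 → F, u = u 0 • e 0 + u 1 • e 1 + u 2 • e 2 := fun u => by
    ext i; fin_cases i <;> simp [e]
  refine ⟨(LinearMap.proj 0).smulRight (P (e 1) (e 2) - P (e 2) (e 1)) +
    (LinearMap.proj 1).smulRight (P (e 2) (e 0) - P (e 0) (e 2)) +
    (LinearMap.proj 2).smulRight (P (e 0) (e 1) - P (e 1) (e 0)), fun u v => ?_⟩
  conv_rhs => rw [he u, he v]
  simp only [cross_apply, LinearMap.add_apply, LinearMap.smulRight_apply, LinearMap.proj_apply,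
    cons_val_zero, cons_val_one, cons_val_two, head_cons, tail_cons, map_add, map_smul,
    LinearMap.smul_apply]
  module

theorem cross_rank_le_one {c : (Fin 3 → F) →ₗ[F] W} {w : Fin 3 → F} (hw : w ≠ 0)
    (h : ∀ u, c (w ⨯₃ u) = 0) : ∃ e, ∀ z, ∃ t : F, c z = t • e := by
  obtain ⟨i, hi⟩ := Function.ne_iff.1 hw
  refine ⟨c (Pi.single i 1), fun z => ⟨(w i)⁻¹ * (z ⬝ᵥ w), ?_⟩⟩
  have := h (z ⨯₃ Pi.single i 1)
  rw [cross_cross_eq_smul_sub_smul', map_sub, map_smul, map_smul, dotProduct_single, mul_one,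
    sub_eq_zero] at this
  rw [mul_smul, ← this, smul_smul, inv_mul_cancel₀ hi, one_smul]

theorem eq_zero_of_cross {p : (Fin 3 → F) →ₗ[F] W} (h : ∀ u v, p (u ⨯₃ v) = 0) : p = 0 := by
  have h0 := h ![0, 1, 0] ![0, 0, 1]
  have h1 := h ![0, 0, 1] ![1, 0, 0]
  have h2 := h ![1, 0, 0] ![0, 1, 0]
  refine LinearMap.ext fun z => ?_
  have : z = z 0 • (![0, 1, 0] ⨯₃ ![0, 0, 1]) + z 1 • (![0, 0, 1] ⨯₃ ![1, 0, 0]) +
      z 2 • (![1, 0, 0] ⨯₃ ![0, 1, 0]) := by
    ext i; fin_cases i <;> simp [cross_apply]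
  rw [this, map_add, map_add, map_smul, map_smul, map_smul, h0, h1, h2]; simp

/-- Bilinear maps on a three-dimensional space whose values are sums of commutators. -/
theorem tri [Infinite F] (P : (Fin 3 → F) →ₗ[F] (Fin 3 → F) →ₗ[F] W) (c : (Fin 3 → F) →ₗ[F] W)
    (hc : ∀ u v, c (u ⨯₃ v) = P u v - P v u) (hP : ∀ u v, ∃ z, P u v = c z)
    (hs : ∀ w, (∀ u, P u w = 0) → ∀ u, P w u = 0) :
    (∃ a, ∀ u v, ∃ x, P u v = P a x) ∨ (∃ e, ∀ u v, ∃ t : F, P u v = t • e) ∨
      (∃ φ : (Fin 3 → F) →ₗ[F] (Fin 3 → F), Function.Injective φ ∧ ∀ u, P u (φ u) = 0) ∨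
      ∃ (φ : (Fin 3 → F) → (Fin 3 → F)) (e : W), (∀ u v, ∃ t : F, P u (φ v) = t • e) ∧
        ∃ x y, P (φ x) (φ y) ≠ P (φ y) (φ x) := by
  by_cases H : ∀ a u v, P a u ≠ 0 → ∃ t : F, P a v = t • P a u
  · rcases pencil_one P H with h | ⟨v0, h⟩
    · exact Or.inr (Or.inl h)
    · have h1 : ∀ x, ∃ t : F, (∀ a, P a x = t • P a v0) ∧ ∀ a, P x a = t • P v0 a := fun x => by
        obtain ⟨t, ht⟩ := h x
        refine ⟨t, ht, fun a => ?_⟩
        simpa [sub_eq_zero] using hs (x - t • v0) (fun u => by simp [ht]) a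
      have h2 : c = 0 := eq_zero_of_cross fun u v => by
        obtain ⟨t, h2, h3⟩ := h1 u
        obtain ⟨r, h4, h5⟩ := h1 v
        rw [hc, h4 u, h3 v0, h2 v, h5 v0, smul_comm, sub_self]
      exact Or.inr (Or.inl ⟨0, fun u v => ⟨0, by
        obtain ⟨z, hz⟩ := hP u v
        simp [hz, h2]⟩⟩)
  push Not at H
  obtain ⟨a, u0, u1, h0, h1⟩ := H
  have ha : LinearIndependent F ![P a u0, P a u1] :=
    (LinearIndependent.pair_iff' h0).2 fun t ht => h1 t ht.symm
  by_cases hA : ∃ a, ∀ u v, ∃ x, P u v = P a x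
  · exact Or.inl hA
  push Not at hA
  have hle : ∀ a, LinearMap.range (P a) ≤ LinearMap.range c := fun a => by
    rintro _ ⟨x, rfl⟩
    obtain ⟨z, hz⟩ := hP a x
    exact ⟨z, hz.symm⟩
  have hlt : ∀ a, finrank F (LinearMap.range (P a)) < finrank F (LinearMap.range c) := fun a => by
    refine Submodule.finrank_lt_finrank_of_lt (lt_of_le_of_ne (hle a) fun h => ?_)
    obtain ⟨u, v, huv⟩ := hA a
    obtain ⟨x, hx⟩ : P u v ∈ LinearMap.range (P a) := h ▸ hle u ⟨v, rfl⟩
    exact huv x hx.symm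
  have h3 := c.finrank_range_add_finrank_ker
  rw [Module.finrank_fin_fun] at h3
  have h2 : 2 ≤ finrank F (LinearMap.range (P a)) := by
    have := Submodule.finrank_mono (Submodule.span_le.2 (by
      rintro _ ⟨i, rfl⟩
      fin_cases i
      · exact ⟨u0, rfl⟩
      · exact ⟨u1, rfl⟩) : Submodule.span F (Set.range ![P a u0, P a u1]) ≤ LinearMap.range (P a))
    rwa [finrank_span_eq_card ha, Fintype.card_fin] at this
  have hci : LinearMap.ker c = ⊥ := Submodule.finrank_eq_zero.1 (by have := hlt a; omega)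
  obtain ⟨G, hG⟩ := c.exists_leftInverse_of_injective hci
  have hG1 : ∀ z, G (c z) = z := LinearMap.congr_fun hG
  have hG2 : ∀ u v, c (G (P u v)) = P u v := fun u v => by
    obtain ⟨z, hz⟩ := hP u v
    rw [hz, hG1]
  rcases pencil_three (Module.finrank_fin_fun F) (P.compr₂ G) (a := a) (u0 := u0) (u1 := u1)
    (fun v => by
      have h4 := (P v).finrank_range_add_finrank_ker
      rw [Module.finrank_fin_fun] at h4
      have h5 : LinearMap.ker (P v) ≠ ⊥ := fun h => by
        have := hlt v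
        rw [h, finrank_bot] at h4
        omega
      obtain ⟨x, hx, hx0⟩ := Submodule.exists_mem_ne_zero_of_ne_bot h5
      exact ⟨x, hx0, by rw [LinearMap.compr₂_apply, LinearMap.mem_ker.1 hx, map_zero]⟩)
    (LinearIndependent.of_comp c (by
      convert ha using 1
      ext i
      fin_cases i <;> simp [hG2])) with ⟨p, hp, h⟩ | ⟨φ, hφ, h⟩
  · refine (hp (eq_zero_of_cross fun u v => ?_)).elim
    have h4 := h u v
    have h5 := h v u
    rw [LinearMap.compr₂_apply] at h4 h5
    rw [← hG1 (u ⨯₃ v), hc, map_sub, map_sub, h4, h5, sub_self]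
  have h4 : ∀ u, P u (φ u) = 0 := fun u => by
    rw [← hG2, ← LinearMap.compr₂_apply, h, map_zero]
  have h5 : ∀ u v, P u (φ v) = -P v (φ u) := fun u v => by
    have := h4 (u + v)
    simp only [map_add, LinearMap.add_apply, h4, zero_add, add_zero] at this
    exact eq_neg_of_add_eq_zero_right this
  by_cases hi : Function.Injective φ
  · exact Or.inr (Or.inr (Or.inl ⟨φ, hi, h4⟩))
  obtain ⟨w, hw, hw0⟩ := Submodule.exists_mem_ne_zero_of_ne_bot
    (fun h => hi (LinearMap.ker_eq_bot.1 h))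
  rw [LinearMap.mem_ker] at hw
  have hinj : ∀ z, c z = 0 → z = 0 := fun z hz => by rw [← hG1 z, hz, map_zero]
  obtain ⟨x, hx⟩ := DFunLike.ne_iff.1 hφ
  by_cases hr : ∀ y, ∃ t : F, φ y = t • φ x
  · have h6 : ∀ u, P u (φ x) = 0 := fun u => by
      obtain ⟨t, ht⟩ := hr u
      rw [h5, ht, map_smul, h4, smul_zero, neg_zero]
    have h7 : ∀ u, φ x ⨯₃ u = 0 := fun u => hinj _ (by rw [hc, h6, hs _ h6, sub_self])
    obtain ⟨e, he⟩ := cross_rank_le_one (c := LinearMap.id) hx h7
    have h8 : finrank F (Fin 3 → F) ≤ 1 := finrank_le_one e fun z => by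
      obtain ⟨t, ht⟩ := he z
      exact ⟨t, ht.symm⟩
    simp at h8
  push Not at hr
  obtain ⟨y, hy⟩ := hr
  have hxy : LinearIndependent F ![φ x, φ y] :=
    (LinearIndependent.pair_iff' hx).2 fun t ht => hy t ht.symm
  have h6 : LinearIndependent F ![w, x, y] := by
    rw [Fintype.linearIndependent_iff]
    intro g hg
    simp only [Fin.sum_univ_three, cons_val_zero, cons_val_one, cons_val_two, head_cons,
      tail_cons] at hg
    have h2 := congrArg φ hg
    simp only [map_add, map_smul, hw, smul_zero, zero_add, map_zero] at h2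
    obtain ⟨h3, h4⟩ := LinearIndependent.pair_iff.1 hxy _ _ h2
    simp only [h3, h4, zero_smul, add_zero, smul_eq_zero, hw0, or_false] at hg
    intro i
    fin_cases i <;> assumption
  have h7 : ∀ u, ∃ r s t : F, u = r • w + s • x + t • y := fun u => by
    have := h6.span_eq_top_of_card_eq_finrank' (by simp)
    obtain ⟨g, hg⟩ := (Submodule.mem_span_range_iff_exists_fun F).1
      (this ▸ Submodule.mem_top : u ∈ Submodule.span F (Set.range ![w, x, y]))
    exact ⟨g 0, g 1, g 2, by rw [← hg, Fin.sum_univ_three]; rfl⟩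
  refine Or.inr (Or.inr (Or.inr ⟨φ, P x (φ y), fun u v => ?_, x, y, fun h8 => ?_⟩))
  · obtain ⟨r, s, t, rfl⟩ := h7 u
    obtain ⟨r', s', t', rfl⟩ := h7 v
    refine ⟨s * t' - t * s', ?_⟩
    have e1 : ∀ v, P w (φ v) = 0 := fun v => by rw [h5, hw, map_zero, neg_zero]
    simp only [map_add, map_smul, LinearMap.add_apply, LinearMap.smul_apply, hw, e1, h4, h5 y x,
      smul_zero, zero_add, add_zero, map_zero]
    module
  · exact crossProduct_ne_zero_iff_linearIndependent.2 hxy (hinj _ (by rw [hc, h8, sub_self]))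

/-- A four-linear map on a three-dimensional space alternating in adjacent places is zero. -/
theorem alt_four {X Y : Type*} [AddCommGroup X] [Module F X] [AddCommGroup Y] [Module F Y]
    (B : (Fin 3 → F) →ₗ[F] (Fin 3 → F) →ₗ[F] X) (C : (Fin 3 → F) →ₗ[F] (Fin 3 → F) →ₗ[F] Y)
    (S : X →ₗ[F] Y →ₗ[F] W) (h1 : ∀ u w x, S (B u u) (C w x) = 0)
    (h2 : ∀ u v x, S (B u v) (C v x) = 0) (h3 : ∀ u v w, S (B u v) (C w w) = 0)
    (u v w x : Fin 3 → F) : S (B u v) (C w x) = 0 := by
  have a2 : ∀ u v w x, S (B u v) (C w x) = -S (B u w) (C v x) := fun u v w x => by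
    have := h2 u (v + w) x
    simp only [map_add, LinearMap.add_apply, h2, zero_add, add_zero] at this
    exact eq_neg_of_add_eq_zero_right this
  have a3 : ∀ u v w x, S (B u v) (C w x) = -S (B u v) (C x w) := fun u v w x => by
    have := h3 u v (w + x)
    simp only [map_add, LinearMap.add_apply, h3, zero_add, add_zero] at this
    exact eq_neg_of_add_eq_zero_right this
  have b1 : ∀ u v x, S (B u v) (C u x) = 0 := fun u v x => by rw [a2, h1, neg_zero]
  have b2 : ∀ u v w, S (B u v) (C w v) = 0 := fun u v x => by rw [a3, h2, neg_zero]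
  have b3 : ∀ u v w, S (B u v) (C w u) = 0 := fun u v x => by rw [a3, b1, neg_zero]
  let e : Fin 3 → Fin 3 → F := fun i => Pi.single i 1
  have he : ∀ u : Fin 3 → F, u = u 0 • e 0 + u 1 • e 1 + u 2 • e 2 := fun u => by
    ext i; fin_cases i <;> simp [e]
  rw [he u, he v, he w, he x]
  simp only [map_add, map_smul, LinearMap.add_apply, LinearMap.smul_apply, h1, h2, h3, b1, b2, b3,
    smul_zero, add_zero]

end Tri

section Twist

variable {F V : Type*} [Field F] [AddCommGroup V] [Module F V]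

theorem exists_char_twist [IsAlgClosed F] (hV : finrank F V = 3) (m : V →ₗ[F] V →ₗ[F] V) (a : V)
    (σ : V ≃ₗ[F] V) (hσ : ∀ u, σ u = m u a) (h1 : ∀ v, m a v = v)
    (hm : ∀ u v w, m (m u v) w = m (m u a) (m v w)) :
    ∃ χ : V →ₗ[F] F, χ a = 1 ∧ ∀ u v, χ (m u v) = χ (σ u) * χ v := by
  have : FiniteDimensional F V := Module.finite_of_finrank_eq_succ hV
  have : Nontrivial V := Module.nontrivial_of_finrank_eq_succ hV
  have ha : σ a = a := by rw [hσ, h1]
  have ha' : σ.symm a = a := by rw [LinearEquiv.symm_apply_eq, ha]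
  have hs : ∀ u v, σ.symm (m u v) = m (σ.symm u) (σ.symm v) := fun u v => by
    rw [LinearEquiv.symm_apply_eq, hσ, hm, ← hσ, ← hσ, σ.apply_symm_apply, σ.apply_symm_apply]
  obtain ⟨w, hw⟩ : ∃ w, ∀ c : F, w ≠ c • a := by
    by_contra! h
    have := finrank_le_one a fun w => (h w).imp fun c hc => hc.symm
    omega
  obtain ⟨c, hc⟩ := Module.End.exists_eigenvalue ((m.flip w).comp σ.symm.toLinearMap)
  set E := Module.End.eigenspace ((m.flip w).comp σ.symm.toLinearMap) c with hE
  have mem : ∀ y, y ∈ E ↔ m (σ.symm y) w = c • y := fun y => Module.End.mem_eigenspace_iff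
  have hl : ∀ u, ∀ y ∈ E, m u y ∈ E := fun u y hy => by
    rw [mem] at hy ⊢
    rw [hs, hm, ← hσ, σ.apply_symm_apply, hy, map_smul]
  have haE : a ∉ E := fun h => hw c (by rw [mem, ha', h1] at h; exact h)
  have h2 : finrank F E < 3 := hV ▸ Submodule.finrank_lt fun h => haE (h ▸ Submodule.mem_top)
  have h3 : finrank F E ≠ 0 := fun h => hc (Submodule.finrank_eq_zero.1 h)
  by_cases h4 : finrank F E = 1
  · obtain ⟨e, he0, he⟩ := finrank_eq_one_iff'.1 h4
    have he0' : (e : V) ≠ 0 := fun h => he0 (Subtype.ext h)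
    obtain ⟨f, hf⟩ := Module.Projective.exists_dual_eq_one F he0'
    have h5 : ∀ y ∈ E, y = f y • (e : V) := fun y hy => by
      obtain ⟨t, ht⟩ := he ⟨y, hy⟩
      have : y = t • (e : V) := (congrArg Subtype.val ht).symm
      rw [this, map_smul, hf, smul_eq_mul, mul_one]
    refine ⟨f.comp ((m.flip e).comp σ.symm.toLinearMap), ?_, fun u v => ?_⟩
    · change f (m (σ.symm a) e) = 1
      rw [ha', h1, hf]
    · change f (m (σ.symm (m u v)) e) = f (m (σ.symm (σ u)) e) * f (m (σ.symm v) e)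
      rw [hs, hm, ← hσ, σ.apply_symm_apply, σ.symm_apply_apply, h5 _ (hl (σ.symm v) e e.2),
        map_smul, map_smul, map_smul, hf, smul_eq_mul, smul_eq_mul, mul_one, mul_comm]
  · obtain ⟨f, hf, hfE⟩ := Submodule.exists_le_ker_of_notMem haE
    have h5 : LinearMap.ker f = E := by
      refine (Submodule.eq_of_le_of_finrank_le hfE ?_).symm
      have : finrank F (LinearMap.ker f) < 3 := hV ▸ Submodule.finrank_lt fun h =>
        hf (LinearMap.mem_ker.1 (h ▸ Submodule.mem_top))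
      omega
    refine ⟨(f a)⁻¹ • f, by simp [hf], fun u v => ?_⟩
    have h6 : v - ((f a)⁻¹ * f v) • a ∈ E := by
      rw [← h5, LinearMap.mem_ker, map_sub, map_smul, smul_eq_mul]
      field_simp
      ring
    have h7 := hl u _ h6
    rw [← h5, LinearMap.mem_ker, map_sub, map_smul, map_sub, map_smul, ← hσ, smul_eq_mul] at h7
    simp only [LinearMap.smul_apply, smul_eq_mul]
    linear_combination (f a)⁻¹ * h7

/-- A twisted algebra of dimension three spanned by its commutators has a cyclic form. -/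
theorem exists_cyclic_twist [IsAlgClosed F] (hV : finrank F V = 3) (m : V →ₗ[F] V →ₗ[F] V) (a : V)
    (hi : ∀ u, m u a = 0 → u = 0) (h1 : ∀ v, m a v = v)
    (hm : ∀ u v w, m (m u v) w = m (m u a) (m v w))
    (hc : ∀ f : V →ₗ[F] F, (∀ u v, f (m u v) = f (m v u)) → f = 0) :
    ∃ ψ : V →ₗ[F] F, ψ ≠ 0 ∧ ∀ u v w, ψ (m (m u v) w) = ψ (m (m v w) u) := by
  have : FiniteDimensional F V := Module.finite_of_finrank_eq_succ hV
  let σ : V ≃ₗ[F] V := LinearEquiv.ofInjectiveEndo (m.flip a)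
    ((injective_iff_map_eq_zero _).2 hi)
  have hσ : ∀ u, σ u = m u a := fun _ => rfl
  have ha : σ a = a := by rw [hσ, h1]
  have hs : ∀ u v, σ (m u v) = m (σ u) (σ v) := fun u v => by rw [hσ, hm, ← hσ, ← hσ]
  obtain ⟨χ, c1, c2⟩ := exists_char_twist hV m a σ hσ h1 hm
  have n1 : ¬ ∀ u, χ (σ u) = χ u := fun h => by
    have := hc χ fun u v => by rw [c2, c2, h, h, mul_comm]
    simp [this] at c1
  have n2 : ¬ ∀ u, χ (σ (σ u)) = χ u := fun h => by
    have h2 := hc (χ + χ.comp σ.toLinearMap) fun u v => by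
      simp only [LinearMap.add_apply, LinearMap.comp_apply, LinearEquiv.coe_coe, hs, c2, h]
      ring
    have h3 : ∀ u, χ u + χ (σ u) = 0 := LinearMap.congr_fun h2
    have h4 := h3 a
    rw [ha, c1] at h4
    exact n1 fun u => by linear_combination h3 u - χ u * h4
  have n3 : ∀ u, χ (σ (σ (σ u))) = χ u := by
    by_contra n3
    let _ : MulOneClass V :=
      { one := a
        mul := fun x y => m (σ.symm x) y
        one_mul := fun y => by
          change m (σ.symm a) y = y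
          rw [← ha, σ.symm_apply_apply, h1]
        mul_one := fun x => by
          change m (σ.symm x) a = x
          rw [← hσ, σ.apply_symm_apply] }
    have mk : ∀ f : V →ₗ[F] F, f a = 1 → (∀ u v, f (m u v) = f (σ u) * f v) →
        ∃ g : V →* F, ⇑g = ⇑f := fun f h1 h2 =>
      ⟨⟨⟨f, h1⟩, fun x y => by
        change f (m (σ.symm x) y) = f x * f y
        rw [h2, σ.apply_symm_apply]⟩, rfl⟩
    let f : Fin 4 → V →ₗ[F] F := ![χ, χ.comp σ.toLinearMap, (χ.comp σ.toLinearMap).comp σ.toLinearMap,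
      ((χ.comp σ.toLinearMap).comp σ.toLinearMap).comp σ.toLinearMap]
    choose g hg using fun i : Fin 4 => mk (f i) (by fin_cases i <;> simp [f, ha, c1])
      (by fin_cases i <;> simp [f, hs, c2])
    have m1 : ¬ ∀ u, χ (σ (σ u)) = χ (σ u) := fun h => n1 fun u => by simpa using h (σ.symm u)
    have m2 : ¬ ∀ u, χ (σ (σ (σ u))) = χ (σ (σ u)) := fun h => m1 fun u => by
      simpa using h (σ.symm u)
    have m3 : ¬ ∀ u, χ (σ (σ (σ u))) = χ (σ u) := fun h => n2 fun u => by simpa using h (σ.symm u)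
    have hinj : Function.Injective g := fun i j hij => by
      have h : ∀ u, f i u = f j u := fun u => by rw [← hg, ← hg, hij]
      have h' : ∀ u, f j u = f i u := fun u => (h u).symm
      fin_cases i <;> fin_cases j <;> first
        | rfl | exact absurd h n1 | exact absurd h' n1 | exact absurd h n2 | exact absurd h' n2
        | exact absurd h n3 | exact absurd h' n3 | exact absurd h m1 | exact absurd h' m1
        | exact absurd h m2 | exact absurd h' m2 | exact absurd h m3 | exact absurd h' m3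
    have h4 : LinearIndependent F f := LinearIndependent.of_comp (LinearMap.ltoFun F V F F) (by
      have h4 := (linearIndependent_monoidHom V F).comp g hinj
      rwa [show (fun f : V →* F => (f : V → F)) ∘ g = LinearMap.ltoFun F V F F ∘ f from
        funext hg] at h4)
    have := h4.fintype_card_le_finrank
    rw [Subspace.dual_finrank_eq, hV] at this
    simp at this
  refine ⟨χ + χ.comp σ.toLinearMap + (χ.comp σ.toLinearMap).comp σ.toLinearMap, fun h => ?_,
    fun u v w => ?_⟩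
  · have h3 : ∀ u, χ u + χ (σ u) + χ (σ (σ u)) = 0 := LinearMap.congr_fun h
    obtain ⟨x, hx⟩ := not_forall.1 n1
    have h5 := h3 a
    rw [ha, ha, c1] at h5
    refine n1 fun y => ?_
    obtain ⟨y, rfl⟩ := σ.surjective y
    have h4 := h3 (m (σ.symm x) y)
    simp only [hs, c2, σ.apply_symm_apply] at h4
    refine mul_left_cancel₀ (sub_ne_zero.2 hx) ?_
    linear_combination -h4 + χ x * h3 y + χ (σ (σ y)) * (h3 x - χ x * h5)
  · simp only [LinearMap.add_apply, LinearMap.comp_apply, LinearEquiv.coe_coe, hs, c2, n3]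
    ring

end Twist

end Cfsg.Agent.H17
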