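import Cfsg.Agent.H17.SymFive
import Cfsg.Agent.H18.RankOneAlg
import Cfsg.Agent.H18.AbelSum
import Cfsg.Agent.H21.KBCyc

/-!
# Blocks with one simple module and five ordinary characters
-/

set_option autoImplicit false
set_option linter.unusedSectionVars false

namespace Cfsg.Agent.H17

open Cfsg Cfsg.Agent.H18 Cfsg.Agent.H19 MonoidAlgebra Module Subgroup
open Cfsg.Agent.H16 (rk IBr pidem dnum ibrOf cartan)

universe u

theorem ncard_orbit_eq_seven {T X : Type*} [Group T] [MulAction T X] [Finite X] {S : Set X}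
    (hS : S.ncard = 7) (h1 : ∀ x ∈ S, MulAction.orbit T x ⊆ S)
    (h2 : ∀ x ∈ S, Odd (MulAction.orbit T x).ncard ∧ (MulAction.orbit T x).ncard ≠ 1) {v : X}
    (hv : v ∈ S) : (MulAction.orbit T v).ncard = 7 := by
  by_contra h
  have dis : ∀ x y : X, y ∉ MulAction.orbit T x →
      Disjoint (MulAction.orbit T x) (MulAction.orbit T y) := fun x y hy =>
    Set.disjoint_left.2 fun z h3 h4 => hy (by
      rw [← MulAction.orbit_eq_iff.2 h3, MulAction.orbit_eq_iff.2 h4]
      exact MulAction.mem_orbit_self y)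
  obtain ⟨⟨a, ha⟩, ha'⟩ := h2 v hv
  have e1 := Set.ncard_le_ncard (h1 v hv)
  obtain ⟨w, hw, hw'⟩ := Set.exists_mem_notMem_of_ncard_lt_ncard
    (s := MulAction.orbit T v) (t := S) (by omega)
  obtain ⟨⟨b, hb⟩, hb'⟩ := h2 w hw
  have e2 := Set.ncard_union_eq (dis v w hw')
  have e3 := Set.ncard_le_ncard (Set.union_subset (h1 v hv) (h1 w hw))
  obtain ⟨x, hx, hx'⟩ := Set.exists_mem_notMem_of_ncard_lt_ncard
    (s := MulAction.orbit T v ∪ MulAction.orbit T w) (t := S) (by omega)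
  obtain ⟨⟨c, hc⟩, hc'⟩ := h2 x hx
  have e4 := Set.ncard_union_eq (Set.disjoint_union_left.2
    ⟨dis v x fun h => hx' (Or.inl h), dis w x fun h => hx' (Or.inr h)⟩)
  have e5 := Set.ncard_le_ncard (Set.union_subset (Set.union_subset (h1 v hv) (h1 w hw)) (h1 x hx))
  omega

variable {G : Type u} [Group G] {M : Ideal AlgInt} {p : ℕ} [Fact p.Prime]
  {B : Set (IrrCharacter G)}

theorem cartan_le_twelve [Finite G] (hB : LamClosed M B) {i : IBr M G} (h : ibrOf M B = {i})
    (h5 : Nat.card B ≤ 5) : cartan i i ≤ 12 := by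
  obtain ⟨n, a, b, hab⟩ := exists_sum_pidem_eq_fR hB h
  have hS := symLoc_corJ i
  let Z := (zblk M B).map (LinearMap.mulRight (kk M) (piG M G (pidem i)))
  have hZ : ∀ z ∈ Submodule.span (kk M) {piG M G (pidem i)} ⊔ corJ i,
      (∀ a ∈ Submodule.span (kk M) {piG M G (pidem i)} ⊔ corJ i, z * a = a * z) → z ∈ Z := by
    intro z hz hc
    obtain ⟨w, h1, h2, h3⟩ := exists_central_of_corner (x := z) (fun j => piG M G (a j))
      (fun j => piG M G (b j)) (H17.ZG.comm (eB M B))
      (by rw [← H16.piG_fR, ← hab, map_sum]; simp only [map_mul]) hS.idem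
      (by rw [← H16.piG_fR, ← map_mul, H16.fR_mul_pidem_of_mem hB (by rw [h]; rfl)])
      (hS.mul_idem hz).2 (hS.mul_idem hz).1
      (fun y => hc _ (by rw [span_sup_corJ]; exact ⟨y, lr_apply _ _ _⟩))
    exact ⟨w, ⟨Subalgebra.mem_center_iff.2 fun y => (h1 y).symm, h3⟩, h2⟩
  rw [← rk_lr_pidem, rk, ← span_sup_corJ]
  exact finrank_le_twelve hS hZ
    (((Submodule.finrank_map_le _ _).trans (finrank_zblk_le hB)).trans h5)

theorem blockRank_lt_of_central [Finite G] (hM : IsPModular p M) (hB : IsPBlock M B) {z : G}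
    (hz : ∀ g, g * z = z * g) (hz1 : z ≠ 1) (hzp : ∃ k, orderOf z = p ^ k)
    (hd : blockDefect p B ≤ 3) : blockRank p B < p ^ 2 := by
  have hp : p.Prime := Fact.out
  have hcen : zpowers z ≤ Subgroup.center G := Subgroup.zpowers_le.2 (Subgroup.mem_center_iff.2 hz)
  have : (zpowers z).Normal := ⟨fun n hn g => by
    rwa [Subgroup.mem_center_iff.1 (hcen hn) g, mul_inv_cancel_right]⟩
  let π := QuotientGroup.mk' (zpowers z)
  have hπ : Function.Surjective π := QuotientGroup.mk'_surjective _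
  have hker : π.ker = zpowers z := QuotientGroup.ker_mk' _
  obtain ⟨k, hk'⟩ := hzp
  have hk : IsPGroup p π.ker := by
    rw [hker]
    exact IsPGroup.of_card ((Nat.card_zpowers _).trans hk')
  have hc : ∀ y : G, ¬ p ∣ orderOf y → y ∈ H18.Cz π.ker := fun y _ => H18.mem_Cz.2 fun q hq =>
    (Subgroup.mem_center_iff.1 (hcen (hker ▸ hq)) y).symm
  have h1 := H22.isPBlock_preimage_of_preg hπ hM hk hc hB
  have h2 := H21.blockDefect_preimage_infl hM hπ hk hc hB
  have hk0 : k ≠ 0 := fun h => hz1 (orderOf_eq_one_iff.1 (by rw [hk', h, pow_zero]))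
  rw [hker, Nat.card_zpowers, hk', hp.factorization_pow, Finsupp.single_eq_same] at h2
  rw [← H21.blockRank_preimage_infl hM hπ hk hc hB]
  have h3 := H21.card_le_of_defect_le_two hM h1 (by omega)
  have h4 := H21.blockRank_lt_card hM h1
  rcases Nat.eq_zero_or_pos (blockDefect p (H22.infl hπ ⁻¹' B)) with h0 | h0
  · rw [h0, pow_zero] at h3
    exact ((H21.blockRank_le_card hM h1).trans h3).trans_lt (Nat.one_lt_pow two_ne_zero hp.one_lt)
  · exact (h4 h0.ne').trans_le (h3.trans (Nat.pow_le_pow_right hp.pos (by omega)))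

theorem exists_sign_hom {P : Type*} [CommGroup P] [Finite P] (h8 : Nat.card P = 8) {N : Subgroup P}
    {w : P} (hw : w ∉ N) :
    ∃ η : P →* ℂˣ, η ≠ 1 ∧ (∀ v, η v = 1 ∨ η v = -1) ∧ ∀ x ∈ N, η x = 1 := by
  have : NeZero (Monoid.exponent (P ⧸ N)) := ⟨Monoid.exponent_ne_zero_of_finite⟩
  obtain ⟨φ, hφ⟩ := CommGroup.exists_apply_ne_one_of_hasEnoughRootsOfUnity (P ⧸ N) ℂ
    (a := (w : P ⧸ N)) (by rwa [Ne, QuotientGroup.eq_one_iff])
  let η := φ.comp (QuotientGroup.mk' N)
  have h1 : η ≠ 1 := fun h => hφ (DFunLike.congr_fun h w)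
  have h2 : ∀ x ∈ N, η x = 1 := fun x hx => by
    change φ (x : P ⧸ N) = 1
    rw [(QuotientGroup.eq_one_iff x).2 hx, map_one]
  have h3 : η ^ 8 = 1 := MonoidHom.ext fun x => by
    rw [MonoidHom.pow_apply, ← map_pow, ← h8, pow_card_eq_one', map_one, MonoidHom.one_apply]
  have key : ∀ k, η ^ k ≠ 1 → η ^ (2 * k) = 1 →
      ∃ η : P →* ℂˣ, η ≠ 1 ∧ (∀ v, η v = 1 ∨ η v = -1) ∧ ∀ x ∈ N, η x = 1 := fun k h h' =>
    ⟨η ^ k, h, fun v => by
      have := DFunLike.congr_fun h' v
      rw [mul_comm, pow_mul, MonoidHom.pow_apply, MonoidHom.one_apply] at this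
      have h4 : (((η ^ k) v : ℂˣ) : ℂ) ^ 2 = 1 := by rw [← Units.val_pow_eq_pow_val, this]; rfl
      exact (sq_eq_one_iff.1 h4).imp (fun h => Units.ext h) fun h => Units.ext h,
      fun x hx => by rw [MonoidHom.pow_apply, h2 x hx, one_pow]⟩
  by_cases h4 : η ^ 4 = 1
  · by_cases h5 : η ^ 2 = 1
    · exact key 1 (by rwa [pow_one]) h5
    · exact key 2 h5 h4
  · exact key 4 h4 h3

variable [Fintype G] {P : Subgroup G} {e : (kk M)[G]}

theorem rkB_esub_one (hM : IsPModular p M) (hB : IsPBlock M B) (hm : IsMaxPair p ⊤ (gid M B) P e) :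
    rkB M p (Cz (zpowers (1 : G))) (esub p P e 1) = blockRank p B := by
  have := charP_kk hM
  rw [esub_one (isPrim_gid hM.2.1 hB) hm.pairOf, Subgroup.zpowers_one_eq_bot, Cz_bot,
    gid_eq_of_coeff_eq (B := B) (K := ⊤) (A := H22.irrMap Subgroup.topEquiv.symm '' B)
      fun g => by
        rw [subgroupBlockCoeff_of_mem _ _ (Subgroup.mem_top g), H22.blockCoeff_image']; rfl,
    rkB_bid (lamClosed_image _ (H17.lamClosed_of_isPBlock hM.2.1 hB)), H22.blockRank_image]

theorem rkB_esub_pos (hM : IsPModular p M) (hm : IsMaxPair p ⊤ (gid M B) P e) (v : P) :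
    0 < rkB M p (Cz (zpowers (v : G))) (esub p P e v) := by
  have := charP_kk hM
  exact H21.blockRank_pos hM (H21.isPBlock_bset_of_pair hM
    ((sub_esub hm.pairOf.pair v).left hm.pairOf.pair))

theorem card_le_of_NP_le (hM : IsPModular p M) (hB : IsPBlock M B)
    (hm : IsMaxPair p ⊤ (gid M B) P e) (hab : P ≤ Cz P) (h : NP ⊤ P e ≤ Cz P) :
    Nat.card P ≤ Nat.card B := by
  classical
  have h1 := sum_rkB_of_abelian_top hM hB hm hab (η := 1) fun _ _ _ _ _ => rfl
  rw [if_pos rfl, Finset.sum_congr rfl (g := fun v : P =>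
    (rkB M p (Cz (zpowers (v : G))) (esub p P e v) : ℂ)) fun v _ => by
      rw [Subgroup.relIndex_eq_one.2 (h.trans (Cz_anti ((Subgroup.zpowers_le).2 v.2)))]
      simp] at h1
  have h2 : ∑ v : P, rkB M p (Cz (zpowers (v : G))) (esub p P e v) = Nat.card B := by
    exact_mod_cast h1
  rw [← h2, Nat.card_eq_fintype_card, ← Finset.card_univ, Finset.card_eq_sum_ones]
  exact Finset.sum_le_sum fun v _ => rkB_esub_pos hM hm v

theorem not_abelian_eight (hM : IsPModular 2 M) (hB : IsPBlock M B)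
    (hm : IsMaxPair 2 ⊤ (gid M B) P e) (hab : P ≤ Cz P) (h8 : Nat.card P = 8)
    (hl : blockRank 2 B = 1) : Nat.card B ≠ 5 := by
  classical
  intro hk
  have := charP_kk hM
  have hb := isPrim_gid hM.2.1 hB
  have hP := hm.pairOf.pair
  set T := NP ⊤ P e with hT
  have hTN : T ≤ Nz P := inf_le_left.trans inf_le_right
  have h1 : ¬ 2 ∣ (Cz P).relIndex T := fun h => hm.not_dvd_relIndex hb (by
    rwa [top_inf_eq, sup_eq_right.2 hab])
  have hdvd : ∀ v : P, (Cz (zpowers (v : G))).relIndex T ∣ (Cz P).relIndex T := fun v =>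
    Subgroup.relIndex_dvd_of_le_left T (Cz_anti ((Subgroup.zpowers_le).2 v.2))
  have s1 := sum_rkB_of_abelian_top hM hB hm hab (η := 1) fun _ _ _ _ _ => rfl
  rw [if_pos rfl, hk] at s1
  by_cases hfix : ∃ w : P, w ≠ 1 ∧ ∀ t ∈ T, t * w * t⁻¹ = w
  · obtain ⟨w, hw, hw'⟩ := hfix
    obtain ⟨N, hN1, hN2⟩ := exists_compl_fixed hP.isP hab hTN h1
    let _ : CommGroup P := { (inferInstance : Group P) with
      mul_comm := fun a b => Subtype.ext (mem_Cz.1 (hab b.2) a a.2) }
    obtain ⟨η, e1, e2, e3⟩ := exists_sign_hom h8 fun h => hw (hN2 w h hw')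
    have s2 := sum_rkB_of_abelian_top hM hB hm hab (η := η) fun t ht u v h => by
      have := e3 _ (hN1 t ht u v h)
      rwa [map_mul, map_inv, inv_mul_eq_one, eq_comm] at this
    rw [if_neg e1] at s2
    choose q hq using hdvd
    apply h1
    refine (Nat.Prime.dvd_mul Nat.prime_two).1 (⟨∑ v : P, if η v = 1 then 0 else
      rkB M 2 (Cz (zpowers (v : G))) (esub 2 P e v) * q v, ?_⟩ : 2 ∣ 5 * (Cz P).relIndex T)
      |>.resolve_left (by decide)
    apply Nat.cast_injective (R := ℂ)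
    have s3 := congrArg (· * ((Cz P).relIndex T : ℂ)) (congrArg₂ (· - ·) s1 s2)
    simp only [sub_zero, ← Finset.sum_sub_distrib, Finset.sum_mul] at s3
    push_cast at s3 ⊢
    rw [← s3, Finset.mul_sum]
    refine Finset.sum_congr rfl fun v _ => ?_
    have h2 : ((Cz (zpowers (v : G))).relIndex T : ℂ) ≠ 0 :=
      Nat.cast_ne_zero.2 Subgroup.index_ne_zero_of_finite
    rw [hq v]
    rcases e2 v with h | h
    · simp [h]
    · rw [h, if_neg (by norm_num [Units.ext_iff])]
      push_cast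
      rw [← hT]
      field_simp
      simp only [MonoidHom.one_apply, Units.val_one]
      ring
  push Not at hfix
  let _ : MulAction T P := MulAction.compHom P (P.normalizerMonoidHom.comp (inclusion hTN))
  have hs : ∀ (t : T) (v : P), ((t • v : P) : G) = t * v * (t : G)⁻¹ := fun _ _ => rfl
  have ho : ∀ v : P, (MulAction.orbit T v).ncard = (Cz (zpowers (v : G))).relIndex T := fun v => by
    rw [← MulAction.index_stabilizer, Subgroup.relIndex]
    congr 1
    ext t
    rw [MulAction.mem_stabilizer_iff, Subgroup.mem_subgroupOf, mem_Cz_zpowers, Subtype.ext_iff, hs,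
      mul_inv_eq_iff_eq_mul, eq_comm]
  have h7 : ∀ v : P, v ≠ 1 → (Cz (zpowers (v : G))).relIndex T = 7 := fun v hv => by
    rw [← ho]
    refine ncard_orbit_eq_seven (S := {1}ᶜ) ?_ ?_ (fun x hx => ⟨?_, fun h => ?_⟩) hv
    · have := Set.ncard_add_ncard_compl ({1} : Set P)
      rw [Set.ncard_singleton, h8] at this
      omega
    · rintro x hx _ ⟨t, rfl⟩ h
      refine hx (Subtype.ext ?_)
      have := congrArg Subtype.val h
      rw [hs] at this
      simpa using this
    · rw [ho, ← Nat.not_even_iff_odd, even_iff_two_dvd]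
      exact fun h => h1 (h.trans (hdvd x))
    · obtain ⟨t, ht, h2⟩ := hfix x hx
      obtain ⟨y, hy⟩ := Set.ncard_eq_one.1 h
      have h3 : (⟨t, ht⟩ : T) • x ∈ MulAction.orbit T x := MulAction.mem_orbit _ _
      have h4 := MulAction.mem_orbit_self (M := T) x
      rw [hy] at h3 h4
      exact h2 (congrArg Subtype.val (h3.trans h4.symm))
  have h3 : ∀ v : P, v ≠ 1 → rkB M 2 (Cz (zpowers (v : G))) (esub 2 P e v) ≤ 3 := fun v hv => by
    have hs := sub_esub hP v
    have hc := H21.isPBlock_bset_of_pair hM (hs.left hP)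
    have hle : P ≤ Cz (zpowers (v : G)) := hab.trans (Cz_anti ((Subgroup.zpowers_le).2 v.2))
    have h4 := hm.isDefect_local_of_le_Cz hb hs hle
    rw [top_inf_eq, ← H21.bid_bset_of_pair (hs.left hP),
      ← isDefectGroup_subgroupOf_iff hM hc hle] at h4
    have h5 := H17.dg_card hM hc h4
    rw [Nat.card_congr (Subgroup.subgroupOfEquivOfLe hle).toEquiv, h8] at h5
    refine Nat.lt_succ_iff.1 (blockRank_lt_of_central hM hc (z := ⟨v, mem_Cz_zpowers.2 rfl⟩)
      (fun g => Subtype.ext (mem_Cz_zpowers.1 g.2).symm)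
      (fun h => hv (Subtype.ext (Subtype.ext_iff.1 h :))) ?_ ?_)
    · simpa only [← Subgroup.orderOf_coe] using H20.isPElt_of_mem hP.isP v.2
    · exact (Nat.pow_right_injective le_rfl (h5.symm.trans (by norm_num : 8 = 2 ^ 3))).le
  rw [← Finset.add_sum_erase _ _ (Finset.mem_univ 1), Finset.sum_congr rfl
    (g := fun v : P => (rkB M 2 (Cz (zpowers (v : G))) (esub 2 P e v) : ℂ) / 7)
    fun v hv => by rw [h7 v (Finset.mem_erase.1 hv).1]; simp, OneMemClass.coe_one,
    rkB_esub_one hM hB hm, hl, Subgroup.zpowers_one_eq_bot, Cz_bot, Subgroup.relIndex_top_left,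
    ← Finset.sum_div] at s1
  have s2 : ∑ v ∈ (Finset.univ : Finset P).erase 1,
      rkB M 2 (Cz (zpowers (v : G))) (esub 2 P e v) = 28 := by
    apply Nat.cast_injective (R := ℂ)
    simp only [MonoidHom.one_apply, Units.val_one] at s1
    push_cast at s1 ⊢
    linear_combination 7 * s1
  have s3 := Finset.sum_le_card_nsmul _ _ 3 fun v (hv : v ∈ (Finset.univ : Finset P).erase 1) =>
    h3 v (Finset.mem_erase.1 hv).1
  rw [s2, Finset.card_erase_of_mem (Finset.mem_univ _), Finset.card_univ,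
    ← Nat.card_eq_fintype_card, h8] at s3
  simp at s3

end Cfsg.Agent.H17
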