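import Cfsg.Agent.H17.SymThree

/-!
# Symmetric local algebras with a five-dimensional centre have dimension at most twelve
-/

set_option autoImplicit false

namespace Cfsg.Agent.H17

open Matrix Module Submodule Cfsg.Agent.H18

variable {F A : Type*} [Field F] [Ring A] [Algebra F A] {J : Submodule F A}

theorem exists_sub_of_le {U W : Submodule F A} {w : A} (h : U ≤ span F {w} ⊔ W) {a : A}
    (ha : a ∈ U) : ∃ t : F, a - t • w ∈ W := by
  obtain ⟨_, h1, j, hj, rfl⟩ := mem_sup.1 (h ha)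
  obtain ⟨t, rfl⟩ := mem_span_singleton.1 h1
  exact ⟨t, by simpa using hj⟩

theorem exists_sub_of_le_two {U W : Submodule F A} {x y : A}
    (h : U ≤ span F {x} ⊔ (span F {y} ⊔ W)) {a : A} (ha : a ∈ U) :
    ∃ r t : F, a - r • x - t • y ∈ W := by
  obtain ⟨r, hr⟩ := exists_sub_of_le h ha
  obtain ⟨t, ht⟩ := exists_sub_of_le le_rfl hr
  exact ⟨r, t, ht⟩

theorem mem_sup_of_sub {W : Submodule F A} {w a : A} {t : F} (h : a - t • w ∈ W) :
    a ∈ span F {w} ⊔ W :=
  mem_sup.2 ⟨_, smul_mem _ t (mem_span_singleton_self w), _, h, by simp⟩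

theorem pow_le_of_pow_mem {N m : ℕ} (hN : J ^ N = ⊥) {x : A}
    (h : ∀ i, J ^ (m + i) ≤ span F {x ^ (m + i)} ⊔ J ^ (m + i + 1)) {S : Submodule F A} (i : ℕ)
    (hS : ∀ j, x ^ (m + i + j) ∈ S) : J ^ (m + i) ≤ S := by
  have key : ∀ j, J ^ (m + i) ≤ S ⊔ J ^ (m + (i + j)) := fun j => by
    induction j with
    | zero => exact le_sup_right
    | succ j ih =>
      refine ih.trans (sup_le le_sup_left ((h (i + j)).trans (sup_le_sup_right ?_ _)))
      rw [span_singleton_le_iff_mem, ← add_assoc]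
      exact hS j
  have := key N
  rwa [← add_assoc, pow_add J (m + i) N, hN, mul_bot, sup_bot_eq] at this

theorem exists_pow_gen {N m : ℕ} (hN : J ^ N = ⊥) {w : A} (hw : w ∈ J ^ (m + 1))
    (h : J ^ (m + 1) ≤ span F {w} ⊔ J ^ (m + 2)) (h2 : J ^ (m + 2) ≠ ⊥) :
    ∃ x ∈ J, J ^ (m + 1) ≤ span F {x ^ (m + 1)} ⊔ J ^ (m + 2) := by
  obtain ⟨z, hz, hz'⟩ := SetLike.not_le_iff_exists.1 fun h' : J ^ (m + 2) ≤ J ^ (m + 2 + 1) =>
    h2 (eq_bot_of_le_succ hN h')
  obtain ⟨τ, hτ, hτ'⟩ := Submodule.exists_le_ker_of_notMem hz'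
  have hτ0 : ∀ a ∈ J ^ (m + 3), τ a = 0 := fun a ha => hτ' ha
  choose! σ hσ using fun a (ha : a ∈ J ^ (m + 1)) => exists_sub_of_le h ha
  have e1 : ∀ p ∈ J ^ (m + 1), ∀ v ∈ J, τ (p * v) = σ p * τ (w * v) := fun p hp v hv => by
    have := hτ0 _ (mul_mem_pow_succ (hσ p hp) hv)
    rwa [sub_mul, map_sub, smul_mul_assoc, map_smul, sub_eq_zero] at this
  have e2 : ∀ p ∈ J ^ (m + 1), ∀ v ∈ J, τ (v * p) = σ p * τ (v * w) := fun p hp v hv => by
    have := hτ0 _ (mul_mem_pow_succ' hv (hσ p hp))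
    rwa [mul_sub, map_sub, mul_smul_comm, map_smul, sub_eq_zero] at this
  have e3 : τ.comp ((LinearMap.mulLeft F w).comp J.subtype) ≠ 0 := fun h0 => hτ (by
    rw [pow_succ] at hz
    refine Submodule.mul_induction_on hz (fun p hp v hv => ?_) fun a b ha hb => by
      rw [map_add, ha, hb, add_zero]
    rw [e1 p hp v hv, show τ (w * v) = 0 from LinearMap.congr_fun h0 ⟨v, hv⟩, mul_zero])
  obtain ⟨⟨x, hx⟩, hx1⟩ := DFunLike.ne_iff.1 e3
  replace hx1 : τ (w * x) ≠ 0 := hx1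
  refine ⟨x, hx, ?_⟩
  have hxp := fun j => pow_mem_pow J hx j
  by_cases h0 : σ (x ^ (m + 1)) = 0
  · exfalso
    have key : ∀ i j, i + j = m + 1 → ∀ q ∈ J ^ i, τ (q * x ^ j * x) = 0 := fun i => by
      induction i with
      | zero =>
        intro j hj q hq
        rw [pow_zero, one_eq_span] at hq
        obtain ⟨t, rfl⟩ := mem_span_singleton.1 hq
        rw [zero_add] at hj
        rw [smul_mul_assoc, smul_mul_assoc, one_mul, map_smul, hj, e1 _ (hxp _) x hx, h0, zero_mul,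
          smul_zero]
      | succ i ih =>
        intro j hj q hq
        rw [pow_succ'] at hq
        refine Submodule.mul_induction_on hq (fun u hu r hr => ?_) fun a b ha hb => by
          rw [add_mul, add_mul, map_add, ha, hb, add_zero]
        have h3 : r * x ^ (j + 1) ∈ J ^ (m + 1) := mul_mem_pow_add hr (hxp _) (by omega)
        have h4 := ih (j + 1) (by omega) r hr
        rw [e1 _ h3 x hx] at h4
        rw [mul_assoc, mul_assoc, ← pow_succ, e2 _ h3 u hu, (mul_eq_zero.1 h4).resolve_right hx1,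
          zero_mul]
    have := key (m + 1) 0 rfl w hw
    rw [pow_zero, mul_one] at this
    exact hx1 this
  · refine h.trans (sup_le ?_ le_sup_right)
    rw [span_singleton_le_iff_mem]
    refine mem_sup_of_sub (t := (σ (x ^ (m + 1)))⁻¹) ?_
    have := smul_mem _ (-(σ (x ^ (m + 1)))⁻¹) (hσ _ (hxp _))
    rwa [smul_sub, smul_smul, neg_mul, inv_mul_cancel₀ h0, neg_smul, neg_smul, one_smul,
      neg_sub_neg] at this

/-- If `J ^ m / J ^ (m + 1)` is one-dimensional then `J ^ m` is central. -/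
theorem central_of_gap {N m : ℕ} (hN : J ^ N = ⊥) {w : A} (hw : w ∈ J ^ (m + 1))
    (h : J ^ (m + 1) ≤ span F {w} ⊔ J ^ (m + 2)) :
    ∀ p ∈ J ^ (m + 1), ∀ j ∈ J, p * j = j * p := by
  by_cases h2 : J ^ (m + 2) = ⊥
  · intro p hp j hj
    have h3 := mul_mem_pow_succ hp hj
    have h4 := mul_mem_pow_succ' hj hp
    rw [h2, mem_bot] at h3 h4
    rw [h3, h4]
  obtain ⟨x, hx, h3⟩ := exists_pow_gen hN hw h h2
  have hxp := fun j => pow_mem_pow J hx j
  have h4 : ∀ i, J ^ (m + 1 + i) ≤ span F {x ^ (m + 1 + i)} ⊔ J ^ (m + 1 + i + 1) := fun i => by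
    induction i with
    | zero => exact h3
    | succ i ih =>
      rw [← add_assoc, pow_succ' J (m + 1 + i)]
      refine mul_le.2 fun u hu q hq => ?_
      obtain ⟨t, ht⟩ := exists_sub_of_le ih hq
      obtain ⟨r, hr⟩ := exists_sub_of_le ih
        (mul_mem_pow_add (mem_pow_one hu) (hxp (m + i)) (by omega))
      refine mem_sup_of_sub (t := t * r) ?_
      have := add_mem (mul_mem_pow_succ' hu ht) (smul_mem _ t (mul_mem_pow_succ hr hx))
      convert this using 1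
      rw [show m + 1 + i = m + i + 1 by omega]
      simp only [pow_succ, mul_sub, sub_mul, mul_smul_comm, smul_mul_assoc, smul_sub, smul_smul,
        mul_assoc]
      abel
  have h5 : ∀ i, ∀ p ∈ J ^ (m + 1 + i), x * p = p * x := fun i p hp =>
    mem_commSub.1 (pow_le_of_pow_mem hN h4 (S := commSub F {x}) i (fun j => mem_commSub.2
      fun t ht => by rw [Set.mem_singleton_iff.1 ht, ← pow_succ, ← pow_succ']) hp) x rfl
  have h6 : ∀ i, ∀ y ∈ J, ∀ a b, a + b = m + 1 + i → x ^ a * y * x ^ b = y * x ^ (m + 1 + i) := by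
    intro i y hy a
    induction a with
    | zero => intro b hb; rw [pow_zero, one_mul, ← hb, zero_add]
    | succ a ih =>
      intro b hb
      have := h5 i _ (mul_mem_pow_add (mul_mem_pow_succ (hxp a) hy) (hxp b) hb)
      rw [← ih (b + 1) (by omega), pow_succ' x a, pow_succ x b, ← mul_assoc, ← this]
      simp only [mul_assoc]
  intro p hp j hj
  refine (mem_commSub.1 (pow_le_of_pow_mem hN h4 (S := commSub F {j}) 0 (fun i => mem_commSub.2
    fun t ht => ?_) hp) j rfl).symm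
  rw [Set.mem_singleton_iff.1 ht, add_zero, ← h6 i j hj (m + 1 + i) 0 rfl, pow_zero, mul_one]

/-- The commutators with a fixed element. -/
def adJ (J : Submodule F A) (x : A) : Submodule F A :=
  J.map (LinearMap.mulLeft F x - LinearMap.mulRight F x)

theorem mem_adJ {x a : A} (ha : a ∈ J) : x * a - a * x ∈ adJ J x := ⟨a, ha, rfl⟩

theorem comSpan_le_adJ (hJ : J * J ≤ J) {N : ℕ} (hN : J ^ N = ⊥) {x y : A} (hx : x ∈ J)
    (hy : y ∈ J) (h : J ≤ span F {x} ⊔ (span F {y} ⊔ J ^ 2)) :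
    comSpan J ≤ adJ J x ⊔ adJ J y := by
  let S : Submodule F A :=
    { carrier := {p | p ∈ J ∧ ∀ q ∈ J, p * q - q * p ∈ adJ J x ⊔ adJ J y}
      add_mem' := fun {a b} ha hb => ⟨add_mem ha.1 hb.1, fun q hq => by
        rw [show (a + b) * q - q * (a + b) = (a * q - q * a) + (b * q - q * b) by noncomm_ring]
        exact add_mem (ha.2 q hq) (hb.2 q hq)⟩
      zero_mem' := ⟨zero_mem _, fun q _ => by simp⟩
      smul_mem' := fun c a ha => ⟨smul_mem _ c ha.1, fun q hq => by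
        rw [smul_mul_assoc, mul_smul_comm, ← smul_sub]
        exact smul_mem _ c (ha.2 q hq)⟩ }
  have hxS : x ∈ S ⊓ J := ⟨⟨hx, fun q hq => mem_sup_left (mem_adJ hq)⟩, hx⟩
  have hyS : y ∈ S ⊓ J := ⟨⟨hy, fun q hq => mem_sup_right (mem_adJ hq)⟩, hy⟩
  have hS : J ≤ S := le_of_le_inf_sup_sq hJ hN
    (mul_le.2 fun a ha b hb => ⟨hJ (mul_mem_mul ha.1 hb.1), fun q hq => by
      rw [show a * b * q - q * (a * b) = (a * (b * q) - (b * q) * a) + (b * (q * a) - (q * a) * b)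
        by noncomm_ring]
      exact add_mem (ha.2 _ (hJ (mul_mem_mul hb.1 hq))) (hb.2 _ (hJ (mul_mem_mul hq ha.1)))⟩)
    (h.trans (sup_le (le_sup_of_le_left ((span_singleton_le_iff_mem _ _).2 hxS))
      (sup_le_sup_right ((span_singleton_le_iff_mem _ _).2 hyS) _)))
  exact span_le.2 (by rintro _ ⟨a, ha, b, hb, rfl⟩; exact (hS ha).2 b hb)

theorem comSpan_le_four (hJ : J * J ≤ J) {N : ℕ} (hN : J ^ N = ⊥) {x y u v : A} (hx : x ∈ J)
    (hy : y ∈ J) (h1 : J ≤ span F {x} ⊔ (span F {y} ⊔ J ^ 2))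
    (h2 : J ^ 2 ≤ span F {x * x} ⊔ (span F {u} ⊔ J ^ 3))
    (h3 : J ^ 3 ≤ span F {x * x * x} ⊔ (span F {v} ⊔ J ^ 4))
    (h4 : y * v - v * y ∈ adJ J x ⊔ J ^ 5) :
    comSpan J ≤ span F (Set.range ![x * y - y * x, x * u - u * x, x * v - v * x, y * u - u * y]) ⊔
      J ^ 5 := by
  set T := span F (Set.range ![x * y - y * x, x * u - u * x, x * v - v * x, y * u - u * y]) ⊔
    J ^ 5 with hT
  have dec : ∀ a ∈ J, ∃ a1 a2 a3 a4 a5 a6 : F, ∃ r ∈ J ^ 4,
      a = a1 • x + a2 • y + a3 • (x * x) + a4 • u + a5 • (x * x * x) + a6 • v + r := fun a ha => by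
    obtain ⟨a1, a2, e1⟩ := exists_sub_of_le_two h1 ha
    obtain ⟨a3, a4, e2⟩ := exists_sub_of_le_two h2 e1
    obtain ⟨a5, a6, e3⟩ := exists_sub_of_le_two h3 e2
    exact ⟨a1, a2, a3, a4, a5, a6, _, e3, by abel⟩
  have m0 : x * y - y * x ∈ T := mem_sup_left (subset_span ⟨0, rfl⟩)
  have m1 : x * u - u * x ∈ T := mem_sup_left (subset_span ⟨1, rfl⟩)
  have m2 : x * v - v * x ∈ T := mem_sup_left (subset_span ⟨2, rfl⟩)
  have m3 : y * u - u * y ∈ T := mem_sup_left (subset_span ⟨3, rfl⟩)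
  have m4 : ∀ z ∈ J, ∀ r ∈ J ^ 4, z * r - r * z ∈ T := fun z hz r hr =>
    mem_sup_right (sub_mem (mul_mem_pow_succ' hz hr) (mul_mem_pow_succ hr hz))
  have hX : adJ J x ≤ T := by
    rintro _ ⟨a, ha, rfl⟩
    obtain ⟨a1, a2, a3, a4, a5, a6, r, hr, rfl⟩ := dec a ha
    convert add_mem (add_mem (add_mem (smul_mem _ a2 m0) (smul_mem _ a4 m1)) (smul_mem _ a6 m2))
      (m4 x hx r hr) using 1
    simp only [LinearMap.sub_apply, LinearMap.mulLeft_apply, LinearMap.mulRight_apply, mul_add,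
      add_mul, mul_smul_comm, smul_mul_assoc, mul_assoc]
    module
  have mJ : ∀ {a b : A}, a ∈ J → b ∈ J → a * b ∈ J := fun ha hb => hJ (mul_mem_mul ha hb)
  refine (comSpan_le_adJ hJ hN hx hy h1).trans (sup_le hX ?_)
  rintro _ ⟨a, ha, rfl⟩
  obtain ⟨a1, a2, a3, a4, a5, a6, r, hr, rfl⟩ := dec a ha
  have m5 := hX (mem_adJ (add_mem (mJ hx hy) (mJ hy hx)))
  have m6 := hX (mem_adJ (add_mem (add_mem (mJ hx (mJ hx hy)) (mJ hx (mJ hy hx)))
    (mJ hy (mJ hx hx))))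
  have m7 : y * v - v * y ∈ T := sup_le hX le_sup_right h4
  convert add_mem (add_mem (add_mem (add_mem (add_mem (smul_mem _ (-a1) m0) (smul_mem _ (-a3) m5))
    (smul_mem _ a4 m3)) (smul_mem _ (-a5) m6)) (smul_mem _ a6 m7)) (m4 y hy r hr) using 1
  simp only [LinearMap.sub_apply, LinearMap.mulLeft_apply, LinearMap.mulRight_apply, mul_add,
    add_mul, mul_smul_comm, smul_mul_assoc, mul_assoc]
  module

theorem two_left {x y : A} (hx : x ∈ J) (hy : y ∈ J) (hJ : J * J ≤ J)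
    (h1 : J ≤ span F {x} ⊔ (span F {y} ⊔ J ^ 2))
    (h2 : J ^ 2 ≤ J.map (LinearMap.mulLeft F x) ⊔ J ^ 3) :
    J ^ 2 ≤ span F {x * x} ⊔ (span F {x * y} ⊔ J ^ 3) ∧
      J ^ 3 ≤ span F {x * x * x} ⊔ (span F {x * x * y} ⊔ J ^ 4) ∧
        y * (x * x * y) - (x * x * y) * y ∈ adJ J x ⊔ J ^ 5 := by
  have mJ : ∀ {a b : A}, a ∈ J → b ∈ J → a * b ∈ J := fun ha hb => hJ (mul_mem_mul ha hb)
  have h3 : J ^ 2 ≤ span F {x * x} ⊔ (span F {x * y} ⊔ J ^ 3) := by
    refine h2.trans (sup_le ?_ (le_sup_of_le_right le_sup_right))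
    rintro _ ⟨a, ha, rfl⟩
    obtain ⟨r, t, e⟩ := exists_sub_of_le_two h1 ha
    refine mem_sup_of_sub (t := r) (mem_sup_of_sub (t := t) ?_)
    convert mul_mem_pow_succ' hx e using 1
    simp only [LinearMap.mulLeft_apply, mul_sub, mul_smul_comm]
  refine ⟨h3, ?_, ?_⟩
  · rw [pow_succ J 2]
    refine mul_le.2 fun a ha b hb => ?_
    obtain ⟨_, ⟨c, hc, rfl⟩, d, hd, rfl⟩ := mem_sup.1 (h2 ha)
    obtain ⟨r, t, e⟩ := exists_sub_of_le_two h3 (mul_mem_sq hc hb)
    refine mem_sup_of_sub (t := r) (mem_sup_of_sub (t := t) ?_)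
    convert add_mem (mul_mem_pow_succ' hx e) (mul_mem_pow_succ hd hb) using 1
    simp only [LinearMap.mulLeft_apply, mul_sub, add_mul, mul_smul_comm, mul_assoc]
    abel
  obtain ⟨α, β, e⟩ := exists_sub_of_le_two h3 (mul_mem_sq hy hx)
  have m4 : ∀ r ∈ J ^ 4, y * r - r * y ∈ adJ J x ⊔ J ^ 5 := fun r hr =>
    mem_sup_right (sub_mem (mul_mem_pow_succ' hy hr) (mul_mem_pow_succ hr hy))
  have m6 : _ ∈ adJ J x ⊔ J ^ 5 := mem_sup_left (mem_adJ (add_mem (add_mem (mJ hx (mJ hx hy))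
    (mJ hx (mJ hy hx))) (mJ hy (mJ hx hx))))
  by_cases hβ : β = 0
  · rw [hβ, zero_smul, sub_zero] at e
    have m7 : _ ∈ adJ J x ⊔ J ^ 5 := mem_sup_left (mem_adJ (add_mem (mJ hx (mJ hy hy))
      (mJ hy (mJ hy hx))))
    convert add_mem (sub_mem (neg_mem m7) (m4 _ (mul_mem_pow_succ e hx))) (smul_mem _ α m6) using 1
    simp only [mul_add, add_mul, mul_sub, sub_mul, mul_smul_comm, smul_mul_assoc, mul_assoc]
    module
  · have m7 : _ ∈ adJ J x ⊔ J ^ 5 := mem_sup_left (mem_adJ (mJ hy (mJ hx hy)))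
    have := smul_mem _ β⁻¹ (add_mem (sub_mem (neg_mem m7) (m4 _ (mul_mem_pow_succ' hx e)))
      (smul_mem _ α m6))
    convert this using 1
    rw [eq_inv_smul_iff₀ hβ]
    simp only [mul_add, add_mul, mul_sub, sub_mul, mul_smul_comm, smul_mul_assoc, mul_assoc]
    module

theorem two_right {x y : A} (hx : x ∈ J) (hy : y ∈ J)
    (h1 : J ≤ span F {x} ⊔ (span F {y} ⊔ J ^ 2)) (h2 : ∀ a ∈ J, a * y ∈ J ^ 3) :
    J ^ 2 ≤ span F {x * x} ⊔ (span F {y * x} ⊔ J ^ 3) ∧
      J ^ 3 ≤ span F {x * x * x} ⊔ (span F {y * x * x} ⊔ J ^ 4) ∧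
        y * (y * x * x) - (y * x * x) * y ∈ adJ J x ⊔ J ^ 5 := by
  have h3 : J ^ 2 ≤ span F {x * x} ⊔ (span F {y * x} ⊔ J ^ 3) := by
    rw [pow_two]
    refine mul_le.2 fun a ha b hb => ?_
    obtain ⟨r, t, e⟩ := exists_sub_of_le_two h1 ha
    obtain ⟨r', t', e'⟩ := exists_sub_of_le_two h1 hb
    refine mem_sup_of_sub (t := r * r') (mem_sup_of_sub (t := t * r') ?_)
    convert add_mem (add_mem (mul_mem_pow_succ' ha e') (smul_mem _ t' (h2 a ha)))
      (smul_mem _ r' (mul_mem_pow_succ e hx)) using 1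
    simp only [mul_sub, sub_mul, mul_smul_comm, smul_mul_assoc]
    module
  have h4 : ∀ a ∈ J ^ 2, a * y ∈ J ^ 4 := fun a ha => by
    rw [pow_two] at ha
    refine Submodule.mul_induction_on ha (fun b hb c hc => ?_) fun b c hb hc => by
      rw [add_mul]; exact add_mem hb hc
    rw [mul_assoc]
    exact mul_mem_pow_succ' hb (h2 c hc)
  refine ⟨h3, ?_, ?_⟩
  · rw [pow_succ J 2]
    refine mul_le.2 fun a ha b hb => ?_
    obtain ⟨r, t, e⟩ := exists_sub_of_le_two h3 ha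
    obtain ⟨r', t', e'⟩ := exists_sub_of_le_two h1 hb
    refine mem_sup_of_sub (t := r * r') (mem_sup_of_sub (t := t * r') ?_)
    convert add_mem (add_mem (mul_mem_pow_add ha e' rfl) (smul_mem _ t' (h4 a ha)))
      (smul_mem _ r' (mul_mem_pow_succ e hx)) using 1
    simp only [mul_sub, sub_mul, mul_smul_comm, smul_mul_assoc]
    module
  · refine mem_sup_right (sub_mem ?_ ?_)
    · rw [← mul_assoc, ← mul_assoc]
      exact mul_mem_pow_succ (mul_mem_pow_succ (h2 y hy) hx) hx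
    · rw [mul_assoc]
      exact mul_mem_pow_add (mul_mem_sq hy hx) (h2 x hx) rfl

variable [FiniteDimensional F A]

theorem finrank_span_sup_le (w : A) (W : Submodule F A) :
    finrank F (span F {w} ⊔ W : Submodule F A) ≤ finrank F W + 1 := by
  have h1 := finrank_add_le_finrank_add_finrank (span F {w}) W
  have h2 := (finrank_span_le_card (R := F) ({w} : Set A)).trans_eq (by simp : _ = 1)
  omega

theorem finrank_range_sup_le {n : ℕ} (w : Fin n → A) (W : Submodule F A) :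
    finrank F (span F (Set.range w) ⊔ W : Submodule F A) ≤ finrank F W + n := by
  have h1 := finrank_add_le_finrank_add_finrank (span F (Set.range w)) W
  have h2 : finrank F (span F (Set.range w)) ≤ n :=
    (finrank_range_le_card w).trans_eq (Fintype.card_fin n)
  omega

theorem finrank_lt_span_sup {w : A} {W : Submodule F A} (h : w ∉ W) :
    finrank F W < finrank F (span F {w} ⊔ W : Submodule F A) :=
  finrank_lt_finrank_of_lt (lt_of_le_of_ne le_sup_right fun h' =>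
    h (h' ▸ mem_sup_left (mem_span_singleton_self w)))

theorem exists_two_gen (hJ : J * J ≤ J) (hg : finrank F J ≤ finrank F (J ^ 2 : Submodule F A) + 2)
    (h2 : finrank F (J ^ 2 : Submodule F A) = finrank F (J ^ 3 : Submodule F A) + 2) :
    ∃ x ∈ J, ∃ y ∈ J, ∃ u v, J ≤ span F {x} ⊔ (span F {y} ⊔ J ^ 2) ∧
      J ^ 2 ≤ span F {x * x} ⊔ (span F {u} ⊔ J ^ 3) ∧
      J ^ 3 ≤ span F {x * x * x} ⊔ (span F {v} ⊔ J ^ 4) ∧ y * v - v * y ∈ adJ J x ⊔ J ^ 5 := by
  have h21 : J ^ 2 ≤ J := by rw [pow_two]; exact hJ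
  have ext : ∀ x ∈ J, x ∉ J ^ 2 → ∃ y ∈ J, J ≤ span F {x} ⊔ (span F {y} ⊔ J ^ 2) := fun x hx h => by
    have := finrank_lt_span_sup h
    obtain ⟨y, hy, h3⟩ := exists_le_span_sup
      (sup_le ((span_singleton_le_iff_mem x J).2 hx) h21) (by omega)
    exact ⟨y, hy, by rwa [sup_left_comm]⟩
  let L : J →ₗ[F] J →ₗ[F] A ⧸ J ^ 3 :=
    ((LinearMap.mul F A).compl₁₂ J.subtype J.subtype).compr₂ (J ^ 3).mkQ
  have hL : ∀ (a b : J) (t : F) (c : A), L a b = t • (J ^ 3).mkQ c ↔ a * b - t • c ∈ J ^ 3 :=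
    fun a b t c => by rw [← map_smul]; exact Submodule.Quotient.eq _
  have small : ∀ w, ¬ ∀ a ∈ J, ∀ b ∈ J, a * b ∈ span F {w} ⊔ J ^ 3 := fun w h => by
    have h3 : J ^ 2 ≤ span F {w} ⊔ J ^ 3 := by rw [pow_two]; exact mul_le.2 h
    have := (finrank_mono h3).trans (finrank_span_sup_le _ _)
    omega
  by_cases H : ∀ a u v, L a u ≠ 0 → ∃ t : F, L a v = t • L a u
  · rcases pencil_one L H with ⟨e, he⟩ | ⟨⟨x, hx⟩, h⟩
    · obtain ⟨w, rfl⟩ := (J ^ 3).mkQ_surjective e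
      refine (small w fun a ha b hb => ?_).elim
      obtain ⟨t, ht⟩ := he ⟨a, ha⟩ ⟨b, hb⟩
      exact mem_sup_of_sub ((hL _ _ _ _).1 ht)
    have h' : ∀ b ∈ J, ∃ t : F, ∀ a ∈ J, a * b - t • (a * x) ∈ J ^ 3 := fun b hb => by
      obtain ⟨t, ht⟩ := h ⟨b, hb⟩
      exact ⟨t, fun a ha => (hL _ _ _ _).1 (ht ⟨a, ha⟩)⟩
    obtain ⟨y, hy, h3⟩ := ext x hx fun hx2 => small 0 fun a ha b hb => by
      obtain ⟨t, ht⟩ := h' b hb
      have := add_mem (ht a ha) (smul_mem _ t (mul_mem_pow_succ' ha hx2))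
      rw [sub_add_cancel] at this
      exact mem_sup_right this
    obtain ⟨t, ht⟩ := h' y hy
    have hy' : y - t • x ∈ J := sub_mem hy (smul_mem _ _ hx)
    have h4 : J ≤ span F {x} ⊔ (span F {y - t • x} ⊔ J ^ 2) := fun a ha => by
      obtain ⟨r, r', e⟩ := exists_sub_of_le_two h3 ha
      refine mem_sup_of_sub (t := r + r' * t) (mem_sup_of_sub (t := r') ?_)
      convert e using 1
      module
    exact ⟨x, hx, _, hy', _, _, h4, two_right hx hy' h4 fun a ha => by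
      rw [mul_sub, mul_smul_comm]; exact ht a ha⟩
  push Not at H
  obtain ⟨⟨x, hx⟩, ⟨u, hu⟩, ⟨v, hv⟩, h3, h4⟩ := H
  have h5 : x * u ∉ J ^ 3 := fun h => h3 ((Submodule.Quotient.mk_eq_zero _).2 h)
  have h6 : x * v ∉ span F {x * u} ⊔ J ^ 3 := fun h => by
    obtain ⟨t, ht⟩ := exists_sub_of_le le_rfl h
    exact h4 t ((hL ⟨x, hx⟩ ⟨v, hv⟩ t _).2 ht)
  obtain ⟨y, hy, h7⟩ := ext x hx fun h => h5 (mul_mem_pow_succ h hu)
  refine ⟨x, hx, y, hy, _, _, h7, two_left hx hy hJ h7 ?_⟩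
  have d1 := finrank_lt_span_sup h5
  have d2 := finrank_lt_span_sup h6
  have h8 : span F {x * v} ⊔ (span F {x * u} ⊔ J ^ 3) ≤ J ^ 2 :=
    sup_le ((span_singleton_le_iff_mem _ _).2 (mul_mem_sq hx hv))
      (sup_le ((span_singleton_le_iff_mem _ _).2 (mul_mem_sq hx hu)) (pow_succ_succ_le hJ 1))
  rw [← eq_of_le_of_finrank_le h8 (by omega)]
  exact sup_le ((span_singleton_le_iff_mem _ _).2 (mem_sup_left ⟨v, hv, rfl⟩))
    (sup_le ((span_singleton_le_iff_mem _ _).2 (mem_sup_left ⟨u, hu, rfl⟩)) le_sup_right)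

variable {s : A →ₗ[F] F} {ε : A}

omit [FiniteDimensional F A] in
theorem pow_eq_bot_of_le_comSpan (h : SymLoc s ε J) {n : ℕ} (hn : J ^ (n + 1) ≤ comSpan J) :
    J ^ (n + 1) = ⊥ := by
  have h2 : ∀ i, J ^ (i + 1) ≤ J := fun i => by
    induction i with
    | zero => exact (pow_one J).le
    | succ i ih => exact (pow_succ_succ_le h.mul i).trans ih
  rw [eq_bot_iff]
  intro a ha
  exact h.eq_zero (mem_sup_right (h2 _ ha)) (h.map_comSpan (hn ha))
    fun j hj => h.map_comSpan (hn (pow_succ_succ_le h.mul n (mul_mem_pow_succ ha hj)))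

/-- A symmetric local algebra whose centre has dimension at most five has dimension at most
twelve. -/
theorem finrank_le_twelve [IsAlgClosed F] (h : SymLoc s ε J) {Z : Submodule F A}
    (hZ : ∀ z ∈ span F {ε} ⊔ J, (∀ a ∈ span F {ε} ⊔ J, z * a = a * z) → z ∈ Z)
    (h5 : finrank F Z ≤ 5) : finrank F (span F {ε} ⊔ J : Submodule F A) ≤ 12 := by
  obtain ⟨N, hN⟩ := h.nil
  have d1 := h.finrank_le hZ
  by_cases hc : ∀ a ∈ J, ∀ b ∈ J, a * b = b * a
  · have : comSpan J = ⊥ := span_eq_bot.2 (by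
      rintro _ ⟨a, ha, b, hb, rfl⟩
      rw [hc a ha b hb, sub_self])
    rw [this, finrank_bot] at d1
    omega
  have h3 : J ^ 3 ≠ ⊥ := fun h3 => hc (h.comm_of_cube h3)
  have hε : ε ∉ J := fun hε => h3 (by
    have : J ≤ J ^ 2 := fun j hj => by rw [← h.left j hj]; exact mul_mem_sq hε hj
    have h1 : J ^ 1 = ⊥ := eq_bot_of_le_succ hN (by rwa [pow_one])
    rw [pow_one] at h1
    rw [h1, pow_succ, mul_bot])
  have d2 := finrank_lt_span_sup hε
  have d2' := finrank_span_sup_le ε J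
  have hp : ∀ i, J ^ (i + 2) ≤ J ^ (i + 1) := pow_succ_succ_le h.mul
  have hpJ : ∀ i, J ^ (i + 1) ≤ J := fun i => by
    induction i with
    | zero => exact (pow_one J).le
    | succ i ih => exact (hp i).trans ih
  have d3 : ∀ n, J ^ (n + 1) ≠ ⊥ →
      finrank F (comSpan J) < finrank F (comSpan J ⊔ J ^ (n + 1) : Submodule F A) := fun n hn =>
    finrank_lt_finrank_of_lt (lt_of_le_of_ne le_sup_left fun h' =>
      hn (pow_eq_bot_of_le_comSpan h (h' ▸ le_sup_right)))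
  have gap : ∀ m, finrank F (J ^ (m + 1) : Submodule F A) ≤
      finrank F (J ^ (m + 2) : Submodule F A) + 1 → finrank F (J ^ (m + 1) : Submodule F A) ≤ 5 :=
    fun m hm => by
      obtain ⟨w, hw, h1⟩ := exists_le_span_sup (hp m) hm
      exact (finrank_mono fun p hp => hZ p (mem_sup_right (hpJ m hp)) (h.comm_of_J
        (mem_sup_right (hpJ m hp)) (central_of_gap hN hw h1 p hp))).trans h5
  have bot : ∀ m, J ^ (m + 2) = ⊥ → finrank F (J ^ (m + 1) : Submodule F A) ≤ 5 := fun m hm =>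
    (finrank_mono fun p hp => hZ p (mem_sup_right (hpJ m hp)) (h.comm_of_J
      (mem_sup_right (hpJ m hp)) fun j hj => by
        have h3 := mul_mem_pow_succ hp hj
        have h4 := mul_mem_pow_succ' hj hp
        rw [hm, mem_bot] at h3 h4
        rw [h3, h4])).trans h5
  have hle : comSpan J ⊔ J ^ 3 ≤ J ^ 2 := sup_le (comSpan_le_sq J) (hp 1)
  have d4 := finrank_mono hle
  have d5 : _ < finrank F (comSpan J ⊔ J ^ 3 : Submodule F A) := d3 2 h3
  by_cases g1 : finrank F J ≤ finrank F (J ^ 2 : Submodule F A) + 1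
  · obtain ⟨x, hx, h1⟩ := exists_le_span_sup h.sq_le g1
    exact (hc (comm_of_le_span_sup_sq h.mul hN hx h1)).elim
  by_cases g2 : finrank F J ≤ finrank F (J ^ 2 : Submodule F A) + 2
  · have e1 : comSpan J ⊔ J ^ 3 ≠ J ^ 2 := fun e1 => by
      have two : ∀ x ∈ J, ∀ y ∈ J, J ≤ span F {x} ⊔ (span F {y} ⊔ J ^ 2) →
          J ^ 2 ≤ span F {x * y - y * x} ⊔ J ^ 3 := fun x hx y hy hxy =>
        e1.ge.trans (sup_le (comSpan_le_of_two h.mul hx hy hxy) le_sup_right)
      obtain ⟨x, hx, y, hy, h1⟩ := exists_le_span_sup_two h.sq_le g2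
      obtain ⟨x, hx, y, hy, h1, h2⟩ := exists_two_sq_mem hx hy h1 (two x hx y hy h1)
      exact h3 (eq_bot_of_le_succ hN (cube_le_of_two hx hy h1 (two x hx y hy h1) h2))
    have d6 := finrank_lt_finrank_of_lt (lt_of_le_of_ne hle e1)
    by_cases r1 : finrank F (J ^ 2 : Submodule F A) ≤ finrank F (J ^ 3 : Submodule F A) + 1
    · have : finrank F (J ^ 2 : Submodule F A) ≤ 5 := gap 1 r1
      omega
    have r2 : finrank F (J ^ 2 : Submodule F A) = finrank F (J ^ 3 : Submodule F A) + 2 := by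
      obtain ⟨x, hx, y, hy, h1⟩ := exists_le_span_sup_two h.sq_le g2
      have := (finrank_mono (sup_le (comSpan_le_of_two h.mul hx hy h1) le_sup_right)).trans
        (finrank_span_sup_le _ _)
      omega
    obtain ⟨x, hx, y, hy, u, v, h1, h2, h4, h6⟩ := exists_two_gen h.mul g2 r2
    have d7 := (finrank_mono h4).trans ((finrank_span_sup_le _ _).trans
      (Nat.add_le_add_right (finrank_span_sup_le _ _) 1))
    by_cases h7 : J ^ 5 = ⊥
    · have : finrank F (J ^ 4 : Submodule F A) ≤ 5 := bot 3 h7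
      omega
    have d8 := (finrank_mono (sup_le (comSpan_le_four h.mul hN hx hy h1 h2 h4 h6)
      le_sup_right)).trans (finrank_range_sup_le _ _)
    have d9 : _ < finrank F (comSpan J ⊔ J ^ 5 : Submodule F A) := d3 4 h7
    by_cases r3 : finrank F (J ^ 3 : Submodule F A) ≤ finrank F (J ^ 4 : Submodule F A) + 1
    · have : finrank F (J ^ 3 : Submodule F A) ≤ 5 := gap 2 r3
      omega
    · have : finrank F (J ^ 4 : Submodule F A) ≤ 5 :=
        gap 3 (show finrank F (J ^ 4 : Submodule F A) ≤ finrank F (J ^ 5 : Submodule F A) + 1 by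
          omega)
      omega
  obtain ⟨z, hz, g3⟩ := exists_sup_of_finrank_le_succ (U := J ^ 2) (W := J) (n := 2) (by omega)
  obtain ⟨x, hx, y, hy, h1⟩ := exists_le_span_sup_two
    (sup_le ((span_singleton_le_iff_mem z J).2 hz) h.sq_le) g3
  let ι : (Fin 3 → F) →ₗ[F] A := Fintype.linearCombination F ![x, y, z]
  have eι : ∀ v, ι v = v 0 • x + v 1 • y + v 2 • z := fun v => by
    simp [ι, Fintype.linearCombination_apply, Fin.sum_univ_three]
  have hι : ∀ v, ι v ∈ J := fun v => by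
    rw [eι]
    exact add_mem (add_mem (smul_mem _ _ hx) (smul_mem _ _ hy)) (smul_mem _ _ hz)
  have hJ : ∀ j ∈ J, ∃ v, j - ι v ∈ J ^ 2 := fun j hj => by
    obtain ⟨a, b, e⟩ := exists_sub_of_le_two h1 hj
    obtain ⟨c, e'⟩ := exists_sub_of_le le_rfl e
    exact ⟨![a, b, c], by rw [eι]; convert e' using 1; simp only [cons_val]; abel⟩
  have h4 : J ^ 4 = ⊥ := by
    by_contra h4
    have d6 : _ < finrank F (comSpan J ⊔ J ^ 4 : Submodule F A) := d3 3 h4
    have hK : J ^ 2 ≤ comSpan J ⊔ J ^ 4 := (eq_of_le_of_finrank_le (S₁ := comSpan J ⊔ J ^ 4)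
      (sup_le (comSpan_le_sq J) ((hp 2).trans (hp 1))) (by omega)).ge
    have key : ∀ k, J ^ (k + 4) = ⊥ → J ^ 4 = ⊥ := fun k => by
      induction k with
      | zero => exact fun h => h
      | succ k ih => exact fun h' => ih (three_gen h hι hJ h' hK)
    exact h4 (key N (by rw [pow_add, hN, bot_mul]))
  have d6 : finrank F (J ^ 3 : Submodule F A) ≤ 5 := bot 2 h4
  obtain ⟨c, hc⟩ := exists_cross ((LinearMap.mul F A).compl₁₂ ι ι)
  have d7 := finrank_mono (sup_le ((comSpan_le_cross hι hJ hc).trans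
    (sup_le_sup_left (comSpan2_le J) _)) le_sup_right)
  have d8 := finrank_add_le_finrank_add_finrank (LinearMap.range c) (J ^ 3)
  have d9 := c.finrank_range_le
  rw [Module.finrank_fin_fun] at d9
  have d10 := finrank_span_sup_le z (J ^ 2)
  omega

end Cfsg.Agent.H17
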