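import Cfsg.Agent.H17.Pencil
import Cfsg.Agent.H18.SymLocal

/-!
# Symmetric local algebras with three generators and `J ^ 2 = K + soc`
-/

set_option autoImplicit false

namespace Cfsg.Agent.H17

open Matrix Module Submodule Cfsg.Agent.H18

variable {F A : Type*} [Field F] [Ring A] [Algebra F A]

/-- The orthogonal of `J ^ j`. -/
def perpJ (s : A →ₗ[F] F) (J : Submodule F A) (j : ℕ) : Submodule F A where
  carrier := {a | ∀ q ∈ J ^ j, s (a * q) = 0}
  add_mem' ha hb q hq := by rw [add_mul, map_add, ha q hq, hb q hq, add_zero]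
  zero_mem' q _ := by rw [zero_mul, map_zero]
  smul_mem' c a ha q hq := by rw [smul_mul_assoc, map_smul, ha q hq, smul_zero]

theorem mul_mem_pow_add {J : Submodule F A} {i j n : ℕ} {a b : A} (ha : a ∈ J ^ i) (hb : b ∈ J ^ j)
    (h : i + j = n) : a * b ∈ J ^ n := by
  rw [← h, pow_add]; exact mul_mem_mul ha hb

theorem mem_pow_one {J : Submodule F A} {a : A} (ha : a ∈ J) : a ∈ J ^ 1 := by rwa [pow_one]

variable {s : A →ₗ[F] F} {ε : A} {J : Submodule F A}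

theorem perpJ_right {x u : A} {i j n : ℕ} (hx : x ∈ perpJ s J n) (hu : u ∈ J ^ i) (h : i + j = n) :
    x * u ∈ perpJ s J j := fun q hq => by
  rw [mul_assoc]; exact hx _ (mul_mem_pow_add hu hq h)

theorem perpJ_left (hs : ∀ a b, s (a * b) = s (b * a)) {x u : A} {i j n : ℕ}
    (hx : x ∈ perpJ s J n) (hu : u ∈ J ^ i) (h : j + i = n) : u * x ∈ perpJ s J j := fun q hq => by
  rw [mul_assoc, hs, mul_assoc]; exact hx _ (mul_mem_pow_add hq hu h)

theorem mem_perpJ_of_pow {N i j : ℕ} (hN : J ^ N = ⊥) {x : A} (hx : x ∈ J ^ i) (h : i + j = N) :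
    x ∈ perpJ s J j := fun q hq => by
  have := mul_mem_pow_add hx hq h
  rw [hN, mem_bot] at this
  rw [this, map_zero]

section Gen

variable {V : Type*} {ι : V → A}

theorem perpJ_succ (hJ : ∀ j ∈ J, ∃ v, j - ι v ∈ J ^ 2) {N i j : ℕ} (hN : J ^ N = ⊥) {x : A}
    (hx : x ∈ J ^ i) (h : i + 2 + j = N) (H : ∀ v, x * ι v ∈ perpJ s J j) :
    x ∈ perpJ s J (j + 1) := by
  intro q hq
  rw [pow_succ'] at hq
  refine Submodule.mul_induction_on hq (fun u hu r hr => ?_) fun a b ha hb => by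
    rw [mul_add, map_add, ha, hb, add_zero]
  obtain ⟨v, hv⟩ := hJ u hu
  have h1 := mem_perpJ_of_pow (s := s) hN (mul_mem_pow_add hx hv rfl) h r hr
  have h2 := H v r hr
  rw [mul_sub, sub_mul, map_sub, h2, sub_zero, mul_assoc] at h1
  exact h1

theorem perpJ_succ' (hs : ∀ a b, s (a * b) = s (b * a)) (hJ : ∀ j ∈ J, ∃ v, j - ι v ∈ J ^ 2)
    {N i j : ℕ} (hN : J ^ N = ⊥) {x : A} (hx : x ∈ J ^ i) (h : 2 + i + j = N)
    (H : ∀ v, ι v * x ∈ perpJ s J j) : x ∈ perpJ s J (j + 1) := by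
  intro q hq
  rw [pow_succ] at hq
  refine Submodule.mul_induction_on hq (fun r hr u hu => ?_) fun a b ha hb => by
    rw [mul_add, map_add, ha, hb, add_zero]
  obtain ⟨v, hv⟩ := hJ u hu
  have h1 := mem_perpJ_of_pow (s := s) hN (mul_mem_pow_add hv hx rfl) h r hr
  have h2 := H v r hr
  rw [sub_mul, sub_mul, map_sub, h2, sub_zero, mul_assoc, hs, mul_assoc] at h1
  exact h1

theorem pow_eq_bot_of_perp (h : SymLoc s ε J) (hι : ∀ v, ι v ∈ J)
    (hJ : ∀ j ∈ J, ∃ v, j - ι v ∈ J ^ 2) {k : ℕ} (hN : J ^ (k + 3) = ⊥)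
    (H : ∀ u v, ι u * ι v ∈ perpJ s J k) : J ^ (k + 2) = ⊥ := by
  have h1 : ∀ u, ι u ∈ perpJ s J (k + 1) := fun u =>
    perpJ_succ hJ hN (mem_pow_one (hι u)) (by omega) (H u)
  have h2 : ∀ i, J ^ (i + 1) ≤ J := fun i => by
    induction i with
    | zero => exact (pow_one J).le
    | succ i ih => exact (pow_succ_succ_le h.mul i).trans ih
  rw [eq_bot_iff]
  intro w hw
  refine h.eq_zero (mem_sup_right (h2 _ hw)) ?_ fun j hj => ?_
  · rw [pow_succ'] at hw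
    refine Submodule.mul_induction_on hw (fun u hu r hr => ?_) fun a b ha hb => by
      rw [map_add, ha, hb, add_zero]
    obtain ⟨v, hv⟩ := hJ u hu
    have h3 := mem_perpJ_of_pow (s := s) hN hv (j := k + 1) (by omega) r hr
    rwa [sub_mul, map_sub, h1 v r hr, sub_zero] at h3
  · have := mul_mem_pow_succ hw hj
    rw [hN, mem_bot] at this
    rw [this, map_zero]

theorem not_cube (hs : ∀ a b, s (a * b) = s (b * a)) (hι : ∀ v, ι v ∈ J)
    (hJ : ∀ j ∈ J, ∃ v, j - ι v ∈ J ^ 2) {k : ℕ} (hN : J ^ (k + 4) = ⊥) (φ : V → V)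
    (e : A ⧸ perpJ s J (k + 1))
    (he : ∀ u v, ∃ t : F, (perpJ s J (k + 1)).mkQ (ι u * ι (φ v)) = t • e) (x y : V) :
    (perpJ s J (k + 1)).mkQ (ι (φ x) * ι (φ y)) = (perpJ s J (k + 1)).mkQ (ι (φ y) * ι (φ x)) := by
  by_contra hxy
  rw [← sub_eq_zero, ← map_sub] at hxy
  set c := ι (φ x) * ι (φ y) - ι (φ y) * ι (φ x) with hc
  have hc2 : c ∈ J ^ 2 := sub_mem (mul_mem_sq (hι _) (hι _)) (mul_mem_sq (hι _) (hι _))
  have h1 : ∀ u v, ∃ t : F, ι u * ι (φ v) - t • c ∈ perpJ s J (k + 1) := fun u v => by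
    obtain ⟨t, ht⟩ := he u v
    obtain ⟨t1, ht1⟩ := he (φ x) y
    obtain ⟨t2, ht2⟩ := he (φ y) x
    have h2 : (perpJ s J (k + 1)).mkQ c = (t1 - t2) • e := by rw [hc, map_sub, ht1, ht2, sub_smul]
    have h3 : t1 - t2 ≠ 0 := fun h => hxy (by rw [h2, h, zero_smul])
    refine ⟨t * (t1 - t2)⁻¹, (Submodule.Quotient.mk_eq_zero _).1 ?_⟩
    rw [← mkQ_apply, map_sub, map_smul, ht, h2, smul_smul, mul_assoc, inv_mul_cancel₀ h3, mul_one,
      sub_self]
  choose b hb using h1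
  have h2 : ∀ u v w, ∀ q ∈ J ^ k, s (ι u * ι (φ v) * ι w * q) = b u v * s (c * ι w * q) :=
    fun u v w q hq => by
      have := perpJ_right (hb u v) (mem_pow_one (hι w)) (add_comm 1 k) q hq
      rwa [sub_mul, sub_mul, map_sub, smul_mul_assoc, smul_mul_assoc, map_smul, sub_eq_zero] at this
  have h3 : ∀ u v w, ∀ q ∈ J ^ k, s (ι u * ι v * ι (φ w) * q) = s (ι u * c * q) * b v w :=
    fun u v w q hq => by
      have := perpJ_left hs (hb v w) (mem_pow_one (hι u)) rfl q hq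
      rwa [mul_sub, sub_mul, map_sub, mul_smul_comm, smul_mul_assoc, map_smul, sub_eq_zero,
        ← mul_assoc, smul_eq_mul, mul_comm] at this
  have h4 : b (φ x) y ≠ b (φ y) x := fun h => hxy ((Submodule.Quotient.mk_eq_zero _).2 (by
    have := sub_mem (hb (φ x) y) (hb (φ y) x)
    rwa [h, sub_sub_sub_cancel_right] at this))
  refine hxy ((Submodule.Quotient.mk_eq_zero _).2 (perpJ_succ' hs hJ hN hc2 (by omega)
    fun u q hq => ?_))
  have h5 := (cube_scalar (b := fun i j => b (φ i) j) (l := fun w => s (c * ι (φ w) * q))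
    (m := fun u => s (ι (φ u) * c * q)) (fun u v w => by rw [← h2 _ _ _ q hq, h3 _ _ _ q hq]) h4).1
  rw [hc, mul_sub, sub_mul, map_sub, ← mul_assoc, ← mul_assoc, h2 _ _ _ q hq, h2 _ _ _ q hq, h5, h5,
    mul_zero, mul_zero, sub_self]

theorem sub_mem_two (hι : ∀ v, ι v ∈ J) {a b : A} {u v : V} (hb : b ∈ J) (ha' : a - ι u ∈ J ^ 2)
    (hb' : b - ι v ∈ J ^ 2) : a * b - ι u * ι v ∈ J ^ 3 := by
  rw [show a * b - ι u * ι v = (a - ι u) * b + ι u * (b - ι v) by noncomm_ring]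
  exact add_mem (mul_mem_pow_succ ha' hb) (mul_mem_pow_succ' (hι u) hb')

theorem sub_mem_three (hι : ∀ v, ι v ∈ J) {a b c : A} {u v w : V} (hb : b ∈ J) (hc : c ∈ J)
    (ha' : a - ι u ∈ J ^ 2) (hb' : b - ι v ∈ J ^ 2) (hc' : c - ι w ∈ J ^ 2) :
    a * b * c - ι u * ι v * ι w ∈ J ^ 4 := by
  rw [show a * b * c - ι u * ι v * ι w = (a * b - ι u * ι v) * c + ι u * ι v * (c - ι w) by
    noncomm_ring]
  exact add_mem (mul_mem_pow_succ (sub_mem_two hι hb ha' hb') hc)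
    (mul_mem_pow_add (mul_mem_sq (hι u) (hι v)) hc' rfl)

end Gen

/-- The span of the commutators `[J, J ^ 2]`. -/
def comSpan2 (J : Submodule F A) : Submodule F A :=
  span F {c | ∃ a ∈ J, ∃ b ∈ J ^ 2, c = a * b - b * a}

theorem comSpan2_le (J : Submodule F A) : comSpan2 J ≤ J ^ 3 := span_le.2 (by
  rintro _ ⟨a, ha, b, hb, rfl⟩
  exact sub_mem (mul_mem_pow_succ' ha hb) (mul_mem_pow_succ hb ha))

section Three

variable {ι : (Fin 3 → F) →ₗ[F] A}

theorem comSpan_le_cross (hι : ∀ v, ι v ∈ J) (hJ : ∀ j ∈ J, ∃ v, j - ι v ∈ J ^ 2)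
    {c : (Fin 3 → F) →ₗ[F] A} (hc : ∀ u v, c (u ⨯₃ v) = ι u * ι v - ι v * ι u) :
    comSpan J ≤ LinearMap.range c ⊔ comSpan2 J := span_le.2 (by
  rintro _ ⟨a, ha, b, hb, rfl⟩
  obtain ⟨u, hu⟩ := hJ a ha
  obtain ⟨v, hv⟩ := hJ b hb
  rw [show a * b - b * a = (ι u * ι v - ι v * ι u) + ((ι u * (b - ι v) - (b - ι v) * ι u) -
    (b * (a - ι u) - (a - ι u) * b)) by noncomm_ring]
  exact add_mem (mem_sup_left ⟨_, hc u v⟩) (mem_sup_right (sub_mem
    (subset_span ⟨_, hι u, _, hv, rfl⟩) (subset_span ⟨_, hb, _, hu, rfl⟩))))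

theorem cyc_zero (h : SymLoc s ε J) (hι : ∀ v, ι v ∈ J) (hJ : ∀ j ∈ J, ∃ v, j - ι v ∈ J ^ 2)
    {k : ℕ} (hN : J ^ (k + 5) = ⊥) (hK : J ^ 3 ≤ comSpan J ⊔ J ^ 4)
    {c : (Fin 3 → F) →ₗ[F] A} (hc : ∀ u v, c (u ⨯₃ v) = ι u * ι v - ι v * ι u)
    (hci : ∀ z, c z ∈ J ^ 3 → z = 0) {q : A} (hq : q ∈ J ^ (k + 1))
    (H : ∀ u v w, s (ι u * ι v * ι w * q) = s (ι v * ι w * ι u * q)) {x : A} (hx : x ∈ J ^ 3) :
    s (x * q) = 0 := by
  have h4 : ∀ y ∈ J ^ 4, s (y * q) = 0 := fun y hy =>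
    mem_perpJ_of_pow (s := s) hN hy (by omega) q hq
  have h5 : ∀ y ∈ comSpan2 J, s (y * q) = 0 := fun y hy => by
    refine (span_le.2 ?_ : comSpan2 J ≤ LinearMap.ker (s.comp (LinearMap.mulRight F q))) hy
    rintro _ ⟨a, ha, b, hb, rfl⟩
    change s ((a * b - b * a) * q) = 0
    rw [pow_two] at hb
    refine Submodule.mul_induction_on hb (fun b hb d hd => ?_) fun b d hb hd => by
      rw [show (a * (b + d) - (b + d) * a) * q = (a * b - b * a) * q + (a * d - d * a) * q by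
        noncomm_ring, map_add, hb, hd, add_zero]
    obtain ⟨u, hu⟩ := hJ a ha
    obtain ⟨v, hv⟩ := hJ b hb
    obtain ⟨w, hw⟩ := hJ d hd
    have e1 := h4 _ (sub_mem_three (ι := ι) hι hb hd hu hv hw)
    have e2 := h4 _ (sub_mem_three (ι := ι) hι hd ha hv hw hu)
    rw [sub_mul, map_sub] at e1 e2 ⊢
    rw [← mul_assoc]
    linear_combination e1 - e2 + H u v w
  obtain ⟨y, hy, z, hz, rfl⟩ := mem_sup.1 (hK hx)
  obtain ⟨_, ⟨t, rfl⟩, r, hr, rfl⟩ := mem_sup.1 (comSpan_le_cross hι hJ hc hy)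
  have h6 : c t ∈ J ^ 3 := by
    have := sub_mem (sub_mem hx (pow_succ_succ_le h.mul 2 hz)) (comSpan2_le J hr)
    rwa [add_sub_cancel_right, add_sub_cancel_right] at this
  rw [hci t h6, map_zero, zero_add, add_mul, map_add, h5 r hr, h4 z hz, add_zero]

theorem pow_le_range_sup (hs : ∀ a b, s (a * b) = s (b * a)) (hι : ∀ v, ι v ∈ J)
    (hJ : ∀ j ∈ J, ∃ v, j - ι v ∈ J ^ 2) {k : ℕ} (hN : J ^ (k + 5) = ⊥) {a : Fin 3 → F}
    (ha : ∀ u v, ∃ x, ι u * ι v - ι a * ι x ∈ perpJ s J (k + 2)) (j l : ℕ) (hjl : j + l = k + 2) :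
    J ^ (j + 2) ≤ LinearMap.range ((LinearMap.mulLeft F (ι a ^ (j + 1))).comp ι) ⊔ perpJ s J l := by
  have h1 : ∀ p ∈ J, ∀ q ∈ J, ∃ x, p * q - ι a * ι x ∈ perpJ s J (k + 2) := fun p hp q hq => by
    obtain ⟨u, hu⟩ := hJ p hp
    obtain ⟨v, hv⟩ := hJ q hq
    obtain ⟨x, hx⟩ := ha u v
    refine ⟨x, ?_⟩
    have := add_mem (mem_perpJ_of_pow (s := s) hN (sub_mem_two (ι := ι) hι hq hu hv)
      (j := k + 2) (by omega)) hx
    rwa [sub_add_sub_cancel] at this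
  induction j generalizing l with
  | zero =>
    obtain rfl : l = k + 2 := by omega
    rw [zero_add, pow_two]
    refine mul_le.2 fun p hp q hq => ?_
    obtain ⟨x, hx⟩ := h1 p hp q hq
    exact mem_sup.2 ⟨_, ⟨x, rfl⟩, _, hx, by simp⟩
  | succ j ih =>
    rw [pow_succ J (j + 2)]
    refine mul_le.2 fun p hp q hq => ?_
    obtain ⟨_, ⟨x, rfl⟩, r, hr, rfl⟩ := mem_sup.1 (ih (l + 1) (by omega) hp)
    obtain ⟨y, hy⟩ := h1 _ (hι x) q hq
    refine mem_sup.2 ⟨_, ⟨y, rfl⟩, _, add_mem (perpJ_right hr (mem_pow_one hq) (add_comm 1 l))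
      (perpJ_left hs hy (pow_mem_pow J (hι a) (j + 1)) (by omega)), ?_⟩
    simp only [LinearMap.comp_apply, LinearMap.mulLeft_apply, pow_succ (ι a) (j + 1)]
    noncomm_ring

theorem three_gen [IsAlgClosed F] (h : SymLoc s ε J) (hι : ∀ v, ι v ∈ J)
    (hJ : ∀ j ∈ J, ∃ v, j - ι v ∈ J ^ 2) {k : ℕ} (hN : J ^ (k + 5) = ⊥)
    (hK : J ^ 2 ≤ comSpan J ⊔ J ^ 4) : J ^ (k + 4) = ⊥ := by
  by_contra hn
  have hs := h.comm
  let P0 : (Fin 3 → F) →ₗ[F] (Fin 3 → F) →ₗ[F] A := (LinearMap.mul F A).compl₁₂ ι ι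
  obtain ⟨c0, hc0⟩ := exists_cross P0
  replace hc0 : ∀ u v, c0 (u ⨯₃ v) = ι u * ι v - ι v * ι u := hc0
  let π := (perpJ s J (k + 2)).mkQ
  have hπ : ∀ x, π x = 0 ↔ x ∈ perpJ s J (k + 2) := fun x => Submodule.Quotient.mk_eq_zero _
  let P := P0.compr₂ π
  have eP : ∀ u v, P u v = π (ι u * ι v) := fun _ _ => rfl
  have h3 : ∀ x ∈ J ^ 3, π x = 0 := fun x hx => (hπ x).2 (mem_perpJ_of_pow hN hx (by omega))
  have hc : ∀ u v, (π.comp c0) (u ⨯₃ v) = P u v - P v u := fun u v => by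
    rw [LinearMap.comp_apply, hc0, map_sub, eP, eP]
  have hP : ∀ u v, ∃ z, P u v = (π.comp c0) z := fun u v => by
    obtain ⟨y, hy, z, hz, e⟩ := mem_sup.1 (hK (mul_mem_sq (hι u) (hι v)))
    obtain ⟨_, ⟨t, rfl⟩, r, hr, rfl⟩ := mem_sup.1 (comSpan_le_cross hι hJ hc0 hy)
    refine ⟨t, ?_⟩
    rw [eP, ← e, map_add, map_add, h3 r (comSpan2_le J hr), h3 z (pow_succ_succ_le h.mul 2 hz),
      add_zero, add_zero, LinearMap.comp_apply]
  have hw1 : ∀ w, ι w ∈ perpJ s J (k + 3) → (∀ u, P u w = 0) ∧ ∀ u, P w u = 0 := fun w hw =>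
    ⟨fun u => (hπ _).2 (perpJ_left hs hw (mem_pow_one (hι u)) rfl),
      fun u => (hπ _).2 (perpJ_right hw (mem_pow_one (hι u)) (by omega))⟩
  have hz : ¬ ∀ u v, P u v = 0 := fun H =>
    hn (pow_eq_bot_of_perp h hι hJ hN fun u v => (hπ _).1 (H u v))
  have hB : ¬ ∃ e, ∀ u v, ∃ t : F, P u v = t • e := fun ⟨e, he⟩ => by
    have h1 : π.comp c0 = 0 := eq_zero_of_cross fun u v => by
      rw [hc, sub_eq_zero]
      exact not_cube hs hι hJ (k := k + 1) hN id e he u v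
    refine hz fun u v => ?_
    obtain ⟨z, hz⟩ := hP u v
    rw [hz, h1, LinearMap.zero_apply]
  rcases tri P (π.comp c0) hc hP (fun w hw => (hw1 w (perpJ_succ' hs hJ hN (mem_pow_one (hι w))
    (by omega) fun u => (hπ _).1 (hw u))).2) with ⟨a, ha⟩ | hB' | ⟨φ, hφ, h1⟩ | ⟨φ, e, he, x, y, hxy⟩
  rotate_left
  · exact hB hB'
  · have hφ' := LinearMap.injective_iff_surjective.1 hφ
    have h2 : ∀ u, ι u * ι (φ u) ∈ perpJ s J (k + 2) := fun u => (hπ _).1 (h1 u)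
    have h4 : ∀ u v w x, ι u * ι v * ι w * ι x ∈ perpJ s J k := fun u v w x q hq => by
      obtain ⟨v, rfl⟩ := hφ' v
      obtain ⟨w, rfl⟩ := (hφ'.comp hφ') w
      obtain ⟨x, rfl⟩ := (hφ'.comp (hφ'.comp hφ')) x
      have := alt_four ((LinearMap.mul F A).compl₁₂ ι (ι.comp φ))
        ((LinearMap.mul F A).compl₁₂ (ι.comp (φ.comp φ)) (ι.comp (φ.comp (φ.comp φ))))
        ((LinearMap.mul F A).compr₂ (s.comp (LinearMap.mulRight F q)))
        (fun u w x => perpJ_right (h2 u) (mul_mem_sq (hι _) (hι _)) (add_comm _ _) q hq)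
        (fun u v x => by
          have := perpJ_right (perpJ_left hs (h2 (φ v)) (mem_pow_one (hι u)) rfl)
            (mem_pow_one (hι (φ (φ (φ x))))) (add_comm _ _) q hq
          simpa [mul_assoc] using this)
        (fun u v w => perpJ_left hs (h2 (φ (φ w))) (mul_mem_sq (hι _) (hι _)) rfl q hq) u v w x
      simpa [mul_assoc] using this
    refine hz fun u v => (hπ _).2 (perpJ_succ hJ hN (mul_mem_sq (hι u) (hι v)) (by omega)
      fun w => perpJ_succ hJ hN (mul_mem_pow_succ (mul_mem_sq (hι u) (hι v)) (hι w)) (by omega)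
        (h4 u v w))
  · exact hxy (not_cube hs hι hJ (k := k + 1) hN φ e he x y)
  have hak := fun j => pow_mem_pow J (hι a) j
  let β : (Fin 3 → F) →ₗ[F] (Fin 3 → F) →ₗ[F] F :=
    ((LinearMap.mul F A).compl₁₂ ι ((LinearMap.mulLeft F (ι a ^ (k + 2))).comp ι)).compr₂ s
  have eβ : ∀ w v, β w v = s (ι w * (ι a ^ (k + 2) * ι v)) := fun _ _ => rfl
  have b1 : ∀ w, β w = 0 → w = 0 := fun w hw => by
    by_contra hw0
    have h1 : ι w ∈ perpJ s J (k + 3) := fun q hq => by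
      obtain ⟨_, ⟨x, rfl⟩, r, hr, rfl⟩ := mem_sup.1 (pow_le_range_sup hs hι hJ hN (a := a)
        (fun u v => (ha u v).imp fun x hx => (hπ _).1 (by rw [map_sub, ← eP, ← eP, hx, sub_self]))
        (k + 1) 1 rfl hq)
      rw [mul_add, map_add, hs _ r, hr _ (mem_pow_one (hι w)), add_zero]
      exact LinearMap.congr_fun hw x
    obtain ⟨e, he⟩ := cross_rank_le_one (c := π.comp c0) hw0 fun u => by
      rw [hc, (hw1 w h1).1, (hw1 w h1).2, sub_self]
    refine hB ⟨e, fun u v => ?_⟩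
    obtain ⟨z, hz⟩ := hP u v
    rw [hz]
    exact he z
  have b2 : Function.Surjective β := (LinearMap.injective_iff_surjective_of_finrank_eq_finrank
    (Subspace.dual_finrank_eq).symm).1 ((injective_iff_map_eq_zero _).2 b1)
  have b3 : ∀ x, (∀ w, β w x = 0) → x = 0 := fun x hx =>
    (Module.forall_dual_apply_eq_zero_iff F x).1 fun f => by
      obtain ⟨w, rfl⟩ := b2 f
      exact hx w
  have b4 : ∀ w x, β w x = s (ι a * ι a * ι x * (ι w * ι a ^ k)) := fun w x => by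
    rw [eβ, hs _ (ι w * ι a ^ k)]
    congr 1
    simp only [pow_succ]
    noncomm_ring
  have hPa : LinearMap.ker (P a) = ⊥ := LinearMap.ker_eq_bot'.2 fun v hv => b3 v fun w => by
    have := (hπ (ι a * ι v)).1 hv _ (mul_mem_pow_succ' (hι w) (hak (k + 1)))
    rw [eβ, ← this, hs (ι a * ι v), pow_succ _ (k + 1)]
    simp only [mul_assoc]
  obtain ⟨G, hG⟩ := (P a).exists_leftInverse_of_injective hPa
  have hG1 : ∀ z, G (P a z) = z := LinearMap.congr_fun hG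
  let m := P.compr₂ G
  have em : ∀ u v, m u v = G (P u v) := fun _ _ => rfl
  have hm0 : ∀ u v, ι u * ι v - ι a * ι (m u v) ∈ perpJ s J (k + 2) := fun u v => by
    obtain ⟨x, hx⟩ := ha u v
    rw [← hπ, map_sub, ← eP, ← eP, em, hx, hG1, sub_self]
  have hm1 : ∀ u v w, ι u * ι v * ι w - ι a * ι a * ι (m (m u v) w) ∈ perpJ s J (k + 1) :=
    fun u v w => by
      have := add_mem (perpJ_right (hm0 u v) (mem_pow_one (hι w)) (j := k + 1) (by omega))
        (perpJ_left hs (hm0 (m u v) w) (mem_pow_one (hι a)) rfl)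
      convert this using 1
      noncomm_ring
  have hm2 : ∀ u v w, ι u * ι v * ι w - ι a * ι a * ι (m (m u a) (m v w)) ∈ perpJ s J (k + 1) :=
    fun u v w => by
      have := add_mem (perpJ_left hs (hm0 v w) (mem_pow_one (hι u)) rfl) (hm1 u a (m v w))
      convert this using 1
      noncomm_ring
  have hq : ∀ w, ι w * ι a ^ k ∈ J ^ (k + 1) := fun w => mul_mem_pow_succ' (hι w) (hak k)
  have hsur : Function.Surjective (G.comp (π.comp c0)) := fun x => by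
    obtain ⟨z, hz⟩ := hP a x
    exact ⟨z, by rw [LinearMap.comp_apply, ← hz, hG1]⟩
  obtain ⟨ψ, hψ, hcyc⟩ := exists_cyclic_twist (Module.finrank_fin_fun F) m a
    (fun u hu => b1 u (LinearMap.ext fun v => by
      have h1 := hm0 u a
      rw [hu, map_zero, mul_zero, sub_zero] at h1
      have := h1 _ (mul_mem_pow_succ (hak (k + 1)) (hι v))
      rw [eβ, LinearMap.zero_apply, ← this, pow_succ' _ (k + 1)]
      simp only [mul_assoc]))
    hG1
    (fun u v w => sub_eq_zero.1 (b3 _ fun w' => by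
      have := sub_mem (hm2 u v w) (hm1 u v w) _ (hq w')
      rw [sub_sub_sub_cancel_left, ← mul_sub, ← map_sub] at this
      rw [b4, this]))
    (fun f hf => by
      have h1 : f.comp (G.comp (π.comp c0)) = 0 := eq_zero_of_cross fun u v => by
        rw [LinearMap.comp_apply, LinearMap.comp_apply, hc, map_sub, map_sub, ← em, ← em, hf,
          sub_self]
      refine LinearMap.ext fun x => ?_
      obtain ⟨z, rfl⟩ := hsur x
      exact LinearMap.congr_fun h1 z)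
  obtain ⟨w0, rfl⟩ := b2 ψ
  have h5 : ∀ u v w, s (ι u * ι v * ι w * (ι w0 * ι a ^ k)) = β w0 (m (m u v) w) := fun u v w => by
    have := hm1 u v w _ (hq w0)
    rwa [sub_mul, map_sub, ← b4, sub_eq_zero] at this
  refine hψ (LinearMap.ext fun x => ?_)
  rw [b4]
  refine cyc_zero h hι hJ hN ((pow_succ_succ_le h.mul 1).trans hK) hc0 (fun z hz => ?_) (hq w0)
    (fun u v w => by rw [h5, h5, hcyc]) (mul_mem_pow_succ (mul_mem_sq (hι a) (hι a)) (hι x))
  refine (injective_iff_map_eq_zero _).1 (LinearMap.injective_iff_surjective.2 hsur) z ?_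
  rw [LinearMap.comp_apply, LinearMap.comp_apply, h3 _ hz, map_zero]

end Three

end Cfsg.Agent.H17
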